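import Cfsg.Agent.Lib.Helper46.SpGen.Defs

set_option autoImplicit false
set_option linter.unusedSimpArgs false

namespace Cfsg.Agent.Lib.Helper46.SpGen
open Matrix Cfsg
open Cfsg.Agent.Lib.Helper17 Cfsg.Agent.Lib.Helper17.SympRoot
open Cfsg.Agent.Lib.Helper46

variable {n : ℕ} {F : Type*} [Field F]

/-- the vectors `(1 - Nlow)^k e_z` -/
def xs (z : Fin n) : ℕ → Fin n → F
  | 0 => Pi.single z 1
  | k + 1 => (1 - Nlow n F) *ᵥ xs z k

theorem xs_shape (z : Fin n) (hz : (z : ℕ) = 0) (k : ℕ) :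
    (∀ j : Fin n, k < (j : ℕ) → xs (F := F) z k j = 0) ∧
      (∀ j : Fin n, (j : ℕ) = k → xs (F := F) z k j = (-1) ^ k) := by
  induction k with
  | zero =>
    constructor
    · intro j hj
      have : j ≠ z := by
        intro h
        rw [h] at hj
        omega
      simp [xs, this]
    · intro j hj
      have : j = z := Fin.ext (by omega)
      simp [xs, this]
  | succ k ih =>
    obtain ⟨ih1, ih2⟩ := ih
    constructor
    · intro j hj
      obtain ⟨j', hj'⟩ : ∃ j' : Fin n, (j : ℕ) = j' + 1 :=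
        ⟨⟨j - 1, by have := j.2; omega⟩, by simp; omega⟩
      rw [xs, oneSubNlow_mulVec_apply _ j j' hj', ih1 j (by omega), ih1 j' (by omega), sub_zero]
    · intro j hj
      obtain ⟨j', hj'⟩ : ∃ j' : Fin n, (j : ℕ) = j' + 1 :=
        ⟨⟨j - 1, by have := j.2; omega⟩, by simp; omega⟩
      rw [xs, oneSubNlow_mulVec_apply _ j j' hj', ih1 j (by omega), ih2 j' (by omega), pow_succ]
      ring

theorem chain (hn : 2 ≤ n) (H : Subgroup (Sp n F)) (z l : Fin n) (hz : (z : ℕ) = 0)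
    (hl : (l : ℕ) + 1 = n) (κ : F)
    (h1 : yEl n F * tv (eV (Pi.single l 1)) 1 ∈ H)
    (h2 : tv (fV (Pi.single l 1)) κ * (yEl n F)⁻¹ ∈ H)
    (h3 : tv (fV (Pi.single z 1)) 1 ∈ H) : tv (eV (Pi.single l 1)) (1 : F) ∈ H := by
  have hA : ∀ k : ℕ, tv (fV (xs (F := F) z k)) 1 ∈ H := by
    intro k
    induction k with
    | zero => exact h3
    | succ k ih =>
      have := H.mul_mem (H.mul_mem h2 ih) (H.inv_mem h2)
      rw [conj_tv, sp_coe_mul_mulVec] at this
      rw [yEl_inv_fV] at this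
      rw [tv_mulVec, form_ff, mul_zero, zero_smul, add_zero] at this
      exact this
  obtain ⟨m, hm⟩ : ∃ m : ℕ, (l : ℕ) = m + 1 := ⟨l - 1, by omega⟩
  obtain ⟨c, hc⟩ : ∃ c : F, c = xs (F := F) z (m + 1) l := ⟨_, rfl⟩
  have hc2 : c ^ 2 = 1 := by
    rw [hc, (xs_shape z hz (m + 1)).2 l hm, ← pow_mul, mul_comm, pow_mul]
    simp
  -- X' = u₁⁻¹ (fV x_m)
  have hX' : tv (fV (xs (F := F) z (m + 1)) - c • eV (Pi.single l 1)) 1 ∈ H := by
    have := H.mul_mem (H.mul_mem (H.inv_mem h1) (hA m)) (H.inv_mem (H.inv_mem h1))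
    rw [conj_tv, _root_.mul_inv_rev, sp_coe_mul_mulVec] at this
    rw [yEl_inv_fV] at this
    rw [tv_inv, tv_mulVec, form_fe] at this
    have e : fV ((1 - Nlow n F) *ᵥ xs z m) +
        (-1 * ((1 - Nlow n F) *ᵥ xs z m ⬝ᵥ Pi.single l 1)) • eV (Pi.single l 1) =
        fV (xs (F := F) z (m + 1)) - c • eV (Pi.single l 1) := by
      rw [dotProduct_single_one, hc]
      simp only [xs]
      module
    rwa [e] at this
  have hfin := H.mul_mem (H.mul_mem (H.inv_mem (hA (m + 1))) hX') (H.inv_mem (H.inv_mem (hA (m + 1))))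
  rw [conj_tv, tv_inv, tv_mulVec] at hfin
  have e2 : fV (xs (F := F) z (m + 1)) - c • eV (Pi.single l 1) +
      (-1 * Cfsg.sympForm n F (fV (xs (F := F) z (m + 1)) - c • eV (Pi.single l 1))
        (fV (xs (F := F) z (m + 1)))) • fV (xs (F := F) z (m + 1)) =
      (-c) • eV (Pi.single l 1) := by
    rw [sympForm_sub_left, sympForm_smul_left, form_ff, form_ef, single_one_dotProduct, ← hc]
    have : -1 * (0 - c * -c) = -(c ^ 2) := by ring
    rw [this, hc2]
    module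
  rw [e2, tv_smul] at hfin
  have e3 : (-c) ^ 2 * 1 = (1 : F) := by
    rw [neg_sq, hc2, mul_one]
  rwa [e3] at hfin

end Cfsg.Agent.Lib.Helper46.SpGen
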