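import Cfsg.Agent.Lib.Helper46.SpGen.ConjX2

set_option autoImplicit false
set_option linter.unusedSimpArgs false

namespace Cfsg.Agent.Lib.Helper46.SpGen
open Matrix Cfsg
open Cfsg.Agent.Lib.Helper17 Cfsg.Agent.Lib.Helper17.SympRoot
open Cfsg.Agent.Lib.Helper46

variable {n : ℕ} {F : Type*} [Field F]

theorem U_two_sq (h2 : (2 : F) = 0) : (1 - Nup 2 F) * (1 - Nup 2 F) = 1 := by
  have : (1 - Nup 2 F) * (1 - Nup 2 F) = 1 - (2 : F) • Nup 2 F + Nup 2 F * Nup 2 F := by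
    simp only [Matrix.mul_sub, Matrix.sub_mul, Matrix.mul_one, Matrix.one_mul]
    module
  rw [this, h2, Nup_two_sq]
  simp

theorem Ui_two (h2 : (2 : F) = 0) : Ui 2 F = 1 - Nup 2 F := by
  calc Ui 2 F = Ui 2 F * ((1 - Nup 2 F) * (1 - Nup 2 F)) := by rw [U_two_sq h2, Matrix.mul_one]
    _ = (Ui 2 F * (1 - Nup 2 F)) * (1 - Nup 2 F) := by rw [Matrix.mul_assoc]
    _ = 1 - Nup 2 F := by rw [Ui_mul_U, Matrix.one_mul]

theorem yEl_two_sq (h2 : (2 : F) = 0) : yEl 2 F * yEl 2 F = 1 := by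
  apply sp_ext_ef
  · intro a
    rw [sp_coe_mul_mulVec, yEl_eV, yEl_eV, Matrix.mulVec_mulVec, U_two_sq h2]
    simp
  · intro a
    rw [sp_coe_mul_mulVec, yEl_fV, yEl_fV, Matrix.mulVec_mulVec, ← Matrix.transpose_mul,
      Ui_two h2, U_two_sq h2]
    simp

theorem U_two_single_one : (1 - Nup 2 F) *ᵥ Pi.single 1 1 = Pi.single 1 1 - Pi.single 0 1 := by
  rw [Matrix.sub_mulVec, Matrix.one_mulVec]
  congr 1
  ext i
  fin_cases i <;> simp [Nup, Matrix.mulVec_single_one, Matrix.col_apply]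

theorem sq_u1 (h2 : (2 : F) = 0) :
    (yEl 2 F * tv (eV (Pi.single 1 1)) 1) ^ 2 =
      tv (eV (Pi.single 1 1)) 1 * tv (eV (Pi.single 1 1 - Pi.single 0 1)) (-1) := by
  have hneg : (-1 : F) = 1 := by linear_combination -h2
  have h1 : yEl 2 F * tv (eV (Pi.single 1 1)) 1 * (yEl 2 F)⁻¹ =
      tv (eV (Pi.single 1 1 - Pi.single 0 1)) (1 : F) := by
    rw [conj_tv, yEl_eV, U_two_single_one]
  have h3 : (yEl 2 F)⁻¹ = yEl 2 F := inv_eq_of_mul_eq_one_left (yEl_two_sq h2)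
  rw [h3] at h1
  rw [hneg, tv_comm (form_ee _ _), ← h1, pow_two]
  group

theorem etv_of_pair (h2 : (2 : F) = 0) (H : Subgroup (Sp 2 F)) (hE : indE H = ⊤)
    (lam : F) (h0 : lam ≠ 0) (h1 : lam ≠ 1)
    (hσ : tv (eV (Pi.single 1 1)) 1 * tv (eV (Pi.single 1 1 - Pi.single 0 1)) (-1) ∈ H) :
    tv (eV (Pi.single 1 1)) (1 + lam ^ 2) ∈ H := by
  have hneg : (-1 : F) = 1 := by linear_combination -h2
  have hA : ∀ g : Matrix.SpecialLinearGroup (Fin 2) F,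
      tv (eV ((g : Matrix (Fin 2) (Fin 2) F) *ᵥ Pi.single 1 1)) 1 *
        tv (eV ((g : Matrix (Fin 2) (Fin 2) F) *ᵥ (Pi.single 1 1 - Pi.single 0 1))) 1 ∈ H := by
    intro g
    have hg : g ∈ indE H := by rw [hE]; exact Subgroup.mem_top g
    obtain ⟨k, hk, hkE⟩ := hg
    have := H.mul_mem (H.mul_mem hk hσ) (H.inv_mem hk)
    have e : k * (tv (eV (Pi.single 1 1)) 1 * tv (eV (Pi.single 1 1 - Pi.single 0 1)) (-1)) * k⁻¹ =
        (k * tv (eV (Pi.single 1 1)) 1 * k⁻¹) *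
          (k * tv (eV (Pi.single 1 1 - Pi.single 0 1)) (-1) * k⁻¹) := by group
    rw [e, conj_tv, conj_tv, hkE, hkE, hneg] at this
    exact this
  obtain ⟨gb, hgb⟩ : ∃ g : Matrix.SpecialLinearGroup (Fin 2) F,
      (g : Matrix (Fin 2) (Fin 2) F) = !![0, 1; 1, 1] :=
    ⟨⟨!![0, 1; 1, 1], by rw [Matrix.det_fin_two_of]; linear_combination -h2⟩, rfl⟩
  obtain ⟨gc, hgc⟩ : ∃ g : Matrix.SpecialLinearGroup (Fin 2) F,
      (g : Matrix (Fin 2) (Fin 2) F) = !![1 + lam⁻¹, lam⁻¹; 1, 1] :=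
    ⟨⟨!![1 + lam⁻¹, lam⁻¹; 1, 1], by rw [Matrix.det_fin_two_of]; ring⟩, rfl⟩
  obtain ⟨gd, hgd⟩ : ∃ g : Matrix.SpecialLinearGroup (Fin 2) F,
      (g : Matrix (Fin 2) (Fin 2) F) = !![lam⁻¹, lam⁻¹; lam + 1, 1] :=
    ⟨⟨!![lam⁻¹, lam⁻¹; lam + 1, 1], by
      rw [Matrix.det_fin_two_of]
      have : lam⁻¹ * lam = 1 := inv_mul_cancel₀ h0
      linear_combination -h2 - this⟩, rfl⟩
  obtain ⟨e0, he0⟩ : ∃ e0 : Fin 2 → F, e0 = Pi.single 0 1 := ⟨_, rfl⟩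
  obtain ⟨e1, he1⟩ : ∃ e1 : Fin 2 → F, e1 = Pi.single 1 1 := ⟨_, rfl⟩
  obtain ⟨v', hv'⟩ : ∃ v' : Fin 2 → F, v' = lam⁻¹ • e0 + e1 := ⟨_, rfl⟩
  have B1 : (!![0, 1; 1, 1] : Matrix (Fin 2) (Fin 2) F) *ᵥ Pi.single 1 1 = e0 + e1 := by
    rw [he0, he1]
    ext i
    fin_cases i <;> simp [Matrix.mulVec_single_one, Matrix.col_apply]
  have B2 : (!![0, 1; 1, 1] : Matrix (Fin 2) (Fin 2) F) *ᵥ (Pi.single 1 1 - Pi.single 0 1) = e0 := by
    rw [he0, Matrix.mulVec_sub]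
    ext i
    fin_cases i <;> simp [Matrix.mulVec_single_one, Matrix.col_apply]
  have C1 : (!![1 + lam⁻¹, lam⁻¹; 1, 1] : Matrix (Fin 2) (Fin 2) F) *ᵥ Pi.single 1 1 = v' := by
    rw [hv', he0, he1]
    ext i
    fin_cases i <;> simp [Matrix.mulVec_single_one, Matrix.col_apply]
  have C2 : (!![1 + lam⁻¹, lam⁻¹; 1, 1] : Matrix (Fin 2) (Fin 2) F) *ᵥ
      (Pi.single 1 1 - Pi.single 0 1) = e0 := by
    rw [he0, Matrix.mulVec_sub]
    ext i
    fin_cases i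
    · simp [Matrix.mulVec_single_one, Matrix.col_apply]
      linear_combination -h2
    · simp [Matrix.mulVec_single_one, Matrix.col_apply]
  have D1 : (!![lam⁻¹, lam⁻¹; lam + 1, 1] : Matrix (Fin 2) (Fin 2) F) *ᵥ Pi.single 1 1 = v' := by
    rw [hv', he0, he1]
    ext i
    fin_cases i <;> simp [Matrix.mulVec_single_one, Matrix.col_apply]
  have D2 : (!![lam⁻¹, lam⁻¹; lam + 1, 1] : Matrix (Fin 2) (Fin 2) F) *ᵥ
      (Pi.single 1 1 - Pi.single 0 1) = lam • e1 := by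
    rw [he1, Matrix.mulVec_sub]
    ext i
    fin_cases i
    · simp [Matrix.mulVec_single_one, Matrix.col_apply]
    · simp [Matrix.mulVec_single_one, Matrix.col_apply]
      linear_combination -lam * h2
  have S2 : (Pi.single 1 1 - Pi.single 0 1 : Fin 2 → F) = e0 + e1 := by
    rw [he0, he1]
    ext i
    fin_cases i
    · simp
      linear_combination -h2
    · simp
  have hb := hA gb
  have hc := hA gc
  have hd := hA gd
  rw [hgb, B1, B2] at hb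
  rw [hgc, C1, C2] at hc
  rw [hgd, D1, D2, eV_smul, tv_smul, mul_one] at hd
  rw [hneg, S2, ← he1] at hσ
  rw [← he1]
  have hT2 : ∀ (p : Fin 2 → F), tv (eV p) (1 : F) * tv (eV p) 1 = 1 := by
    intro p
    rw [tv_mul]
    have : (1 : F) + 1 = 0 := by linear_combination h2
    rw [this, tv_zero]
  have hcd : tv (eV e0) (1 : F) * tv (eV v') 1 = tv (eV v') 1 * tv (eV e0) 1 :=
    tv_comm (form_ee _ _) 1 1
  have hfin := H.mul_mem (H.mul_mem (H.mul_mem hσ hb) hc) hd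
  have e : tv (eV e1) 1 * tv (eV (e0 + e1)) 1 * (tv (eV (e0 + e1)) 1 * tv (eV e0) 1) *
      (tv (eV v') 1 * tv (eV e0) 1) * (tv (eV v') 1 * tv (eV e1) (lam ^ 2)) =
      tv (eV e1) (1 + lam ^ 2) := by
    calc tv (eV e1) 1 * tv (eV (e0 + e1)) 1 * (tv (eV (e0 + e1)) 1 * tv (eV e0) 1) *
      (tv (eV v') 1 * tv (eV e0) 1) * (tv (eV v') 1 * tv (eV e1) (lam ^ 2))
        = tv (eV e1) 1 * (tv (eV (e0 + e1)) 1 * tv (eV (e0 + e1)) 1) *
          ((tv (eV e0) 1 * tv (eV v') 1) * tv (eV e0) 1 * tv (eV v') 1) *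
            tv (eV e1) (lam ^ 2) := by group
      _ = tv (eV e1) 1 * ((tv (eV v') 1 * (tv (eV e0) 1 * tv (eV e0) 1) * tv (eV v') 1)) *
            tv (eV e1) (lam ^ 2) := by rw [hT2, hcd]; group
      _ = tv (eV e1) (1 + lam ^ 2) := by
          rw [hT2, mul_one, hT2, mul_one, tv_mul]
  rwa [e] at hfin

end Cfsg.Agent.Lib.Helper46.SpGen
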