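import Cfsg.Agent.Lib.Helper46.SpGen.Defs

set_option autoImplicit false
set_option linter.unusedSimpArgs false

namespace Cfsg.Agent.Lib.Helper46.SpGen
open Matrix Cfsg
open Cfsg.Agent.Lib.Helper17 Cfsg.Agent.Lib.Helper17.SympRoot
open Cfsg.Agent.Lib.Helper46

variable {n : ℕ} {F : Type*} [Field F]

theorem wRev_transpose : (wRev n F)ᵀ = wRev n F := by
  ext i j
  simp [wRev, Matrix.transpose_apply, add_comm]

theorem wRev_mul_U : wRev n F * (1 - Nup n F) = (1 - Nlow n F) * wRev n F := by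
  rw [Matrix.mul_sub, Matrix.mul_one, Matrix.sub_mul, Matrix.one_mul, wRev_mul_Nup]

theorem U_mul_wRev : (1 - Nup n F) * wRev n F = wRev n F * (1 - Nlow n F) := by
  calc (1 - Nup n F) * wRev n F = (wRev n F * wRev n F) * (1 - Nup n F) * wRev n F := by
        rw [wRev_mul_wRev, Matrix.one_mul]
    _ = wRev n F * (wRev n F * (1 - Nup n F)) * wRev n F := by simp only [Matrix.mul_assoc]
    _ = wRev n F * (1 - Nlow n F) * (wRev n F * wRev n F) := by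
        rw [wRev_mul_U]; simp only [Matrix.mul_assoc]
    _ = wRev n F * (1 - Nlow n F) := by rw [wRev_mul_wRev, Matrix.mul_one]

theorem Lw_mul_UiT : (1 - Nlow n F) * (Ui n F)ᵀ = 1 := by
  have : (1 - Nlow n F) = (1 - Nup n F)ᵀ := by
    rw [Matrix.transpose_sub, Matrix.transpose_one, Nup_transpose]
  rw [this, ← Matrix.transpose_mul, Ui_mul_U, Matrix.transpose_one]

theorem Ui_mul_wRev : Ui n F * wRev n F = wRev n F * (Ui n F)ᵀ := by
  calc Ui n F * wRev n F = Ui n F * wRev n F * ((1 - Nlow n F) * (Ui n F)ᵀ) := by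
        rw [Lw_mul_UiT, Matrix.mul_one]
    _ = Ui n F * (wRev n F * (1 - Nlow n F)) * (Ui n F)ᵀ := by simp only [Matrix.mul_assoc]
    _ = (Ui n F * (1 - Nup n F)) * wRev n F * (Ui n F)ᵀ := by
        rw [← U_mul_wRev]; simp only [Matrix.mul_assoc]
    _ = wRev n F * (Ui n F)ᵀ := by rw [Ui_mul_U, Matrix.one_mul]

theorem wRev_mulVec_single (z l : Fin n) (hz : (z : ℕ) = 0) (hl : (l : ℕ) + 1 = n) :
    wRev n F *ᵥ Pi.single l 1 = Pi.single z 1 := by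
  ext i
  rw [Matrix.mulVec_single_one, Matrix.col_apply]
  simp only [wRev, Matrix.of_apply, Pi.single_apply]
  by_cases h : i = z
  · rw [if_pos h, if_pos]
    rw [h]; omega
  · rw [if_neg h, if_neg]
    intro h'
    apply h
    apply Fin.ext
    omega

/-- the Levi element of the reversal permutation -/
def LW (n : ℕ) (F : Type*) [Field F] : Sp n F := Lv (wRev n F) (wRev n F) wRev_mul_wRev

theorem LW_eV (a : Fin n → F) : (LW n F).1 *ᵥ eV a = eV (wRev n F *ᵥ a) := Lv_eV _ _ _ a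

theorem LW_fV (a : Fin n → F) : (LW n F).1 *ᵥ fV a = fV (wRev n F *ᵥ a) := by
  have := Lv_fV (wRev n F) (wRev n F) wRev_mul_wRev a
  rw [wRev_transpose] at this
  exact this

theorem LW_inv : (LW n F)⁻¹ = LW n F := Lv_inv _ _ _

theorem conj_rev (l : Fin n) (hl : (l : ℕ) + 1 = n) :
    ∃ g : Sp n F, ∀ a : Fin n → F,
      ((g * (yEl n F * tv (eV (Pi.single l 1)) 1) * g⁻¹ : Sp n F) :
        Matrix (Fin n ⊕ Fin n) (Fin n ⊕ Fin n) F) *ᵥ eV a = eV ((1 - Nlow n F) *ᵥ a) := by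
  refine ⟨LW n F, fun a => ?_⟩
  rw [LW_inv, sp_coe_mul_mulVec, sp_coe_mul_mulVec, sp_coe_mul_mulVec, LW_eV, tv_mulVec, form_ee,
    mul_zero, zero_smul, add_zero, yEl_eV, LW_eV, Matrix.mulVec_mulVec, Matrix.mulVec_mulVec,
    wRev_mul_U, Matrix.mul_assoc, wRev_mul_wRev, Matrix.mul_one]

/-- scalar Levi element -/
def Lsc (n : ℕ) {F : Type*} [Field F] (lam : F) (h : lam ≠ 0) : Sp n F :=
  Lv (lam • 1) (lam⁻¹ • 1) (by
    rw [Matrix.smul_mul, Matrix.mul_smul, Matrix.one_mul, smul_smul, mul_inv_cancel₀ h, one_smul])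

theorem Lsc_eV (lam : F) (h : lam ≠ 0) (a : Fin n → F) :
    (Lsc n lam h).1 *ᵥ eV a = eV (lam • a) := by
  have := Lv_eV (lam • (1 : Matrix (Fin n) (Fin n) F)) (lam⁻¹ • 1) (by
    rw [Matrix.smul_mul, Matrix.mul_smul, Matrix.one_mul, smul_smul, mul_inv_cancel₀ h,
      one_smul]) a
  rw [Matrix.smul_mulVec, Matrix.one_mulVec] at this
  exact this

theorem Lsc_fV (lam : F) (h : lam ≠ 0) (a : Fin n → F) :
    (Lsc n lam h).1 *ᵥ fV a = fV (lam⁻¹ • a) := by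
  have := Lv_fV (lam • (1 : Matrix (Fin n) (Fin n) F)) (lam⁻¹ • 1) (by
    rw [Matrix.smul_mul, Matrix.mul_smul, Matrix.one_mul, smul_smul, mul_inv_cancel₀ h,
      one_smul]) a
  rw [Matrix.transpose_smul, Matrix.transpose_one, Matrix.smul_mulVec, Matrix.one_mulVec] at this
  exact this

theorem conj_base (z l : Fin n) (hz : (z : ℕ) = 0) (hl : (l : ℕ) + 1 = n) (lam : F)
    (hlam : lam ≠ 0) :
    ∃ h : Sp n F, h * (yEl n F * tv (eV (Pi.single l 1)) 1) * h⁻¹ =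
      tv (fV (Pi.single z 1)) ((lam⁻¹) ^ 2) * (yEl n F)⁻¹ := by
  obtain ⟨M, hM⟩ : ∃ M : Sp n F, M = Lsc n lam hlam * LW n F * Jel n F := ⟨_, rfl⟩
  have hMe : ∀ a : Fin n → F, M.1 *ᵥ eV a = fV (lam⁻¹ • (wRev n F *ᵥ a)) := by
    intro a
    rw [hM, sp_coe_mul_mulVec, sp_coe_mul_mulVec, Jel_eV, LW_fV, Lsc_fV]
  have hMf : ∀ a : Fin n → F, M.1 *ᵥ fV a = eV (lam • (wRev n F *ᵥ (-a))) := by
    intro a
    rw [hM, sp_coe_mul_mulVec, sp_coe_mul_mulVec, Jel_fV, LW_eV, Lsc_eV]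
  have h1 : M * yEl n F = (yEl n F)⁻¹ * M := by
    apply sp_ext_ef
    · intro a
      rw [sp_coe_mul_mulVec, sp_coe_mul_mulVec, yEl_eV, hMe, hMe, yEl_inv_fV,
        Matrix.mulVec_mulVec, wRev_mul_U, Matrix.mulVec_smul, Matrix.mulVec_mulVec]
    · intro a
      rw [sp_coe_mul_mulVec, sp_coe_mul_mulVec, yEl_fV, hMf, hMf, yEl_inv_eV,
        Matrix.mulVec_smul, Matrix.mulVec_mulVec, Ui_mul_wRev, Matrix.mulVec_neg,
        Matrix.mulVec_neg, Matrix.mulVec_mulVec]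
  have h2 : M * tv (eV (Pi.single l 1)) 1 * M⁻¹ = tv (fV (Pi.single z 1)) ((lam⁻¹) ^ 2) := by
    rw [conj_tv, hMe, wRev_mulVec_single z l hz hl, fV_smul, tv_smul, mul_one]
  obtain ⟨t, ht⟩ : ∃ t : Sp n F, t = tv (fV (Pi.single z 1)) ((lam⁻¹) ^ 2) := ⟨_, rfl⟩
  rw [← ht] at h2 ⊢
  refine ⟨t * M, ?_⟩
  calc t * M * (yEl n F * tv (eV (Pi.single l 1)) 1) * (t * M)⁻¹
      = t * ((M * yEl n F) * M⁻¹ * (M * tv (eV (Pi.single l 1)) 1 * M⁻¹)) * t⁻¹ := by group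
    _ = t * (yEl n F)⁻¹ := by rw [h1, h2]; group

end Cfsg.Agent.Lib.Helper46.SpGen
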