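import Cfsg.Agent.Lib.Helper46.SpGen.Defs

set_option autoImplicit false
set_option linter.unusedSimpArgs false

namespace Cfsg.Agent.Lib.Helper46.SpGen
open Matrix Cfsg
open Cfsg.Agent.Lib.Helper17 Cfsg.Agent.Lib.Helper17.SympRoot
open Cfsg.Agent.Lib.Helper46

variable {n : ℕ} {F : Type*} [Field F]

theorem Nup_two_sq : Nup 2 F * Nup 2 F = 0 := by
  ext i j
  fin_cases i <;> fin_cases j <;> simp [Nup, Matrix.mul_apply, Fin.sum_univ_two]

theorem m_mul_mi (r : F) : (1 + r • Nup 2 F) * (1 - r • Nup 2 F) = 1 := by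
  rw [Matrix.mul_sub, Matrix.mul_one, Matrix.add_mul, Matrix.one_mul, Matrix.smul_mul,
    Matrix.mul_smul, Nup_two_sq]
  simp

theorem Nlow_two_single_zero : Nlow 2 F *ᵥ Pi.single 0 1 = Pi.single 1 1 := by
  ext i
  fin_cases i <;> simp [Nlow, Matrix.mulVec_single_one, Matrix.col_apply]

theorem Nlow_two_single_one : Nlow 2 F *ᵥ Pi.single 1 1 = 0 := by
  ext i
  fin_cases i <;> simp [Nlow, Matrix.mulVec_single_one, Matrix.col_apply]

theorem conj_x2 (β r s₁ : F) :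
    ∃ x : Sp 2 F, x * (tv (fV (Pi.single 0 1)) β * (yEl 2 F)⁻¹) * x⁻¹ =
      tv (fV (Pi.single 1 1)) (β * (r ^ 2 - r) - 2 * s₁) * tv (fV (Pi.single 0 1)) β *
        (yEl 2 F)⁻¹ := by
  obtain ⟨a, ha⟩ : ∃ a : Fin 2 → F, a = Pi.single 0 1 := ⟨_, rfl⟩
  obtain ⟨b, hb⟩ : ∃ b : Fin 2 → F, b = Pi.single 1 1 := ⟨_, rfl⟩
  obtain ⟨yi, hyi⟩ : ∃ yi : Sp 2 F, yi = (yEl 2 F)⁻¹ := ⟨_, rfl⟩
  obtain ⟨Lm, hLm⟩ : ∃ Lm : Sp 2 F, Lm = Lv (1 + r • Nup 2 F) (1 - r • Nup 2 F) (m_mul_mi r) :=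
    ⟨_, rfl⟩
  have ya : yi.1 *ᵥ fV a = fV (a - b) := by
    rw [hyi, yEl_inv_fV, ha, hb, Matrix.sub_mulVec, Matrix.one_mulVec, Nlow_two_single_zero]
  have yb : yi.1 *ᵥ fV b = fV b := by
    rw [hyi, yEl_inv_fV, hb, Matrix.sub_mulVec, Matrix.one_mulVec, Nlow_two_single_one, sub_zero]
  have hLa : Lm.1 *ᵥ fV a = fV (a - r • b) := by
    rw [hLm, Lv_fV, ha, hb, Matrix.transpose_sub, Matrix.transpose_one, Matrix.transpose_smul,
      Nup_transpose, Matrix.sub_mulVec, Matrix.one_mulVec, Matrix.smul_mulVec,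
      Nlow_two_single_zero]
  have hcommU : (1 + r • Nup 2 F) * (1 - Nup 2 F) = (1 - Nup 2 F) * (1 + r • Nup 2 F) := by
    simp only [Matrix.mul_sub, Matrix.add_mul, Matrix.sub_mul, Matrix.mul_add, Matrix.mul_one,
      Matrix.one_mul, Matrix.smul_mul, Matrix.mul_smul]
    module
  have hcommUi : (1 + r • Nup 2 F) * Ui 2 F = Ui 2 F * (1 + r • Nup 2 F) := by
    calc (1 + r • Nup 2 F) * Ui 2 F
        = (Ui 2 F * (1 - Nup 2 F)) * (1 + r • Nup 2 F) * Ui 2 F := by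
          rw [Ui_mul_U, Matrix.one_mul]
      _ = Ui 2 F * ((1 + r • Nup 2 F) * (1 - Nup 2 F)) * Ui 2 F := by
          rw [hcommU]; simp only [Matrix.mul_assoc]
      _ = Ui 2 F * (1 + r • Nup 2 F) * ((1 - Nup 2 F) * Ui 2 F) := by
          simp only [Matrix.mul_assoc]
      _ = Ui 2 F * (1 + r • Nup 2 F) := by rw [U_mul_Ui, Matrix.mul_one]
  have hcommL : (1 - r • Nup 2 F)ᵀ * (1 - Nlow 2 F) = (1 - Nlow 2 F) * (1 - r • Nup 2 F)ᵀ := by
    rw [Matrix.transpose_sub, Matrix.transpose_one, Matrix.transpose_smul, Nup_transpose]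
    simp only [Matrix.mul_sub, Matrix.sub_mul, Matrix.mul_one,
      Matrix.one_mul, Matrix.smul_mul, Matrix.mul_smul]
    module
  have hLy : Lm * yi = yi * Lm := by
    apply sp_ext_ef
    · intro v
      rw [sp_coe_mul_mulVec, sp_coe_mul_mulVec, hyi, hLm, yEl_inv_eV, Lv_eV, Lv_eV, yEl_inv_eV,
        Matrix.mulVec_mulVec, Matrix.mulVec_mulVec, hcommUi]
    · intro v
      rw [sp_coe_mul_mulVec, sp_coe_mul_mulVec, hyi, hLm, yEl_inv_fV, Lv_fV, Lv_fV, yEl_inv_fV,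
        Matrix.mulVec_mulVec, Matrix.mulVec_mulVec, hcommL]
  rw [← ha, ← hb, ← hyi]
  obtain ⟨q, hq⟩ : ∃ q : Sp 2 F,
      q = tv (fV a) (β * r) * tv (fV (a + b)) (-s₁) * tv (fV a) s₁ * tv (fV b) s₁ := ⟨_, rfl⟩
  obtain ⟨t', ht'⟩ : ∃ t' : Sp 2 F, t' = tv (fV (a - r • b)) β := ⟨_, rfl⟩
  have hqt : q * t' = t' * q := by
    have h : ∀ (p : Fin 2 → F) (d : F), Commute (tv (fV p) d) t' := by
      intro p d
      rw [ht']
      exact tv_comm (form_ff _ _) d β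
    rw [hq]
    exact (((h _ _).mul_left (h _ _)).mul_left (h _ _)).mul_left (h _ _)
  have hconj : yi * q * yi⁻¹ =
      tv (fV (a - b)) (β * r) * tv (fV (a - b + b)) (-s₁) * tv (fV (a - b)) s₁ * tv (fV b) s₁ := by
    have e : yi * q * yi⁻¹ = (yi * tv (fV a) (β * r) * yi⁻¹) * (yi * tv (fV (a + b)) (-s₁) * yi⁻¹) *
        (yi * tv (fV a) s₁ * yi⁻¹) * (yi * tv (fV b) s₁ * yi⁻¹) := by
      rw [hq]; group
    rw [e, conj_tv, conj_tv, conj_tv, conj_tv, fV_add a b, Matrix.mulVec_add, ya, yb, ← fV_add]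
  have hkey : t' * q = tv (fV b) (β * (r ^ 2 - r) - 2 * s₁) * tv (fV a) β * (yi * q * yi⁻¹) := by
    rw [hconj, hq, ht']
    apply sp_ext
    intro v
    simp only [sp_coe_mul_mulVec, tv_mulVec, fV_add, fV_sub, fV_smul, sympForm_add_left,
      sympForm_smul_left, sympForm_add_right, sympForm_sub_right, sympForm_sub_left,
      sympForm_smul_right, form_ff]
    module
  have hLt : Lm * tv (fV a) β * Lm⁻¹ = t' := by
    rw [conj_tv, hLa, ht']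
  refine ⟨q * Lm, ?_⟩
  calc q * Lm * (tv (fV a) β * yi) * (q * Lm)⁻¹
      = q * ((Lm * tv (fV a) β * Lm⁻¹) * ((Lm * yi) * Lm⁻¹)) * q⁻¹ := by group
    _ = (q * t') * yi * q⁻¹ := by rw [hLt, hLy]; group
    _ = (t' * q) * yi * q⁻¹ := by rw [hqt]
    _ = tv (fV b) (β * (r ^ 2 - r) - 2 * s₁) * tv (fV a) β * yi := by rw [hkey]; group

end Cfsg.Agent.Lib.Helper46.SpGen
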