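import Cfsg.Agent.Lib.Helper46.SpGen.Defs

set_option autoImplicit false
set_option linter.unusedSimpArgs false

namespace Cfsg.Agent.Lib.Helper46.SpGen
open Matrix Cfsg
open Cfsg.Agent.Lib.Helper17 Cfsg.Agent.Lib.Helper17.SympRoot
open Cfsg.Agent.Lib.Helper46

variable {n : ℕ} {F : Type*} [Field F]

theorem oneSubNlow_mulVec_last (l : Fin n) (hl : (l : ℕ) + 1 = n) :
    (1 - Nlow n F) *ᵥ Pi.single l 1 = Pi.single l 1 := by
  rw [Matrix.sub_mulVec, Matrix.one_mulVec]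
  have : Nlow n F *ᵥ Pi.single l 1 = 0 := by
    ext r
    rw [Matrix.mulVec_single_one, Matrix.col_apply]
    simp only [Nlow, Matrix.of_apply, Pi.zero_apply]
    rw [if_neg]
    have := r.2
    omega
  rw [this, sub_zero]

theorem conj_x3 (hn : 3 ≤ n) (z l : Fin n) (hz : (z : ℕ) = 0) (hl : (l : ℕ) + 1 = n) (κ β : F) :
    ∃ x : Sp n F, x * (tv (fV (Pi.single z 1)) β * (yEl n F)⁻¹) * x⁻¹ =
      tv (fV (Pi.single l 1)) κ * tv (fV (Pi.single z 1)) β * (yEl n F)⁻¹ := by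
  obtain ⟨o, ho⟩ : ∃ o : Fin n, (o : ℕ) + 2 = n := ⟨⟨n - 2, by omega⟩, by simp; omega⟩
  obtain ⟨w, hw⟩ : ∃ w : Fin n, (w : ℕ) + 3 = n := ⟨⟨n - 3, by omega⟩, by simp; omega⟩
  obtain ⟨a, ha⟩ : ∃ a : Fin n → F, a = Pi.single l 1 := ⟨_, rfl⟩
  obtain ⟨b, hb⟩ : ∃ b : Fin n → F, b = Pi.single o 1 := ⟨_, rfl⟩
  obtain ⟨c, hc⟩ : ∃ c : Fin n → F, c = Pi.single w 1 := ⟨_, rfl⟩
  have ya : ((yEl n F)⁻¹ : Sp n F).1 *ᵥ fV a = fV a := by
    rw [yEl_inv_fV, ha, oneSubNlow_mulVec_last l hl]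
  have yb : ((yEl n F)⁻¹ : Sp n F).1 *ᵥ fV b = fV (b - a) := by
    rw [yEl_inv_fV, ha, hb, oneSubNlow_mulVec_single o l (by omega)]
  have yc : ((yEl n F)⁻¹ : Sp n F).1 *ᵥ fV c = fV (c - b) := by
    rw [yEl_inv_fV, hb, hc, oneSubNlow_mulVec_single w o (by omega)]
  obtain ⟨t, ht⟩ : ∃ t : Sp n F, t = tv (fV (Pi.single z 1)) β := ⟨_, rfl⟩
  obtain ⟨yi, hyi⟩ : ∃ yi : Sp n F, yi = (yEl n F)⁻¹ := ⟨_, rfl⟩
  rw [← ha, ← ht, ← hyi]
  rw [← hyi] at ya yb yc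
  obtain ⟨x, hx⟩ : ∃ x : Sp n F,
      x = tv (fV b) (-κ) * tv (fV a) (-κ) * tv (fV c) (-κ) * tv (fV (a + c)) κ := ⟨_, rfl⟩
  have hxt : x * t = t * x := by
    have h : ∀ (p : Fin n → F) (d : F), Commute (tv (fV p) d) t := by
      intro p d
      rw [ht]
      exact tv_comm (form_ff _ _) d β
    rw [hx]
    exact (((h _ _).mul_left (h _ _)).mul_left (h _ _)).mul_left (h _ _)
  have hconj : yi * x * yi⁻¹ =
      tv (fV (b - a)) (-κ) * tv (fV a) (-κ) * tv (fV (c - b)) (-κ) * tv (fV (a + (c - b))) κ := by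
    have e : yi * x * yi⁻¹ = (yi * tv (fV b) (-κ) * yi⁻¹) * (yi * tv (fV a) (-κ) * yi⁻¹) *
        (yi * tv (fV c) (-κ) * yi⁻¹) * (yi * tv (fV (a + c)) κ * yi⁻¹) := by
      rw [hx]; group
    rw [e, conj_tv, conj_tv, conj_tv, conj_tv, fV_add a c, Matrix.mulVec_add, ya, yb, yc,
      ← fV_add]
  have hkey : x = tv (fV a) κ * (yi * x * yi⁻¹) := by
    rw [hconj, hx]
    apply sp_ext
    intro v
    simp only [sp_coe_mul_mulVec, tv_mulVec, fV_add, fV_sub, sympForm_add_left,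
      sympForm_smul_left, sympForm_add_right, sympForm_sub_right, sympForm_sub_left, form_ff]
    module
  refine ⟨x, ?_⟩
  calc x * (t * yi) * x⁻¹ = (x * t) * yi * x⁻¹ := by group
    _ = t * x * yi * x⁻¹ := by rw [hxt]
    _ = t * (tv (fV a) κ * (yi * x * yi⁻¹)) * yi * x⁻¹ := by
        rw [← hkey]
    _ = tv (fV a) κ * t * yi := by
        have h : t * tv (fV a) κ = tv (fV a) κ * t := by
          rw [ht]; exact tv_comm (form_ff _ _) β κ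
        calc t * (tv (fV a) κ * (yi * x * yi⁻¹)) * yi * x⁻¹ = (t * tv (fV a) κ) * yi := by group
          _ = tv (fV a) κ * t * yi := by rw [h]

end Cfsg.Agent.Lib.Helper46.SpGen
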