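import Mathlib
import Cfsg.Agent.Lib.Helper17.SympRoot
import Cfsg.Agent.Lib.Helper46.SLnTwoGen

set_option autoImplicit false
set_option linter.unusedSimpArgs false

/-! Basic objects for the generation of `Sp_{2n}(F)` by three conjugate regular unipotents. -/

namespace Cfsg.Agent.Lib.Helper46.SpGen
open Matrix Cfsg
open Cfsg.Agent.Lib.Helper17 Cfsg.Agent.Lib.Helper17.SympRoot
open Cfsg.Agent.Lib.Helper46

variable {n : ℕ} {F : Type*} [Field F]

/-- the symplectic group as a type -/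
abbrev Sp (n : ℕ) (F : Type*) [Field F] := ↥(Matrix.symplecticGroup (Fin n) F)

/-- the vector `(a, 0)` -/
def eV (a : Fin n → F) : Fin n ⊕ Fin n → F := Sum.elim a 0

/-- the vector `(0, b)` -/
def fV (b : Fin n → F) : Fin n ⊕ Fin n → F := Sum.elim 0 b

theorem eV_add_fV (x : Fin n ⊕ Fin n → F) :
    x = eV (fun i => x (Sum.inl i)) + fV (fun i => x (Sum.inr i)) := by
  funext i
  rcases i with i | i <;> simp [eV, fV]

@[simp] theorem eV_inl (a : Fin n → F) (i : Fin n) : eV a (Sum.inl i) = a i := rfl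
@[simp] theorem eV_inr (a : Fin n → F) (i : Fin n) : eV a (Sum.inr i) = 0 := rfl
@[simp] theorem fV_inl (a : Fin n → F) (i : Fin n) : fV a (Sum.inl i) = 0 := rfl
@[simp] theorem fV_inr (a : Fin n → F) (i : Fin n) : fV a (Sum.inr i) = a i := rfl

theorem eV_add (a b : Fin n → F) : eV (a + b) = eV a + eV b := by
  funext i; rcases i with i | i <;> simp
theorem eV_sub (a b : Fin n → F) : eV (a - b) = eV a - eV b := by
  funext i; rcases i with i | i <;> simp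
theorem eV_neg (a : Fin n → F) : eV (-a) = -eV a := by
  funext i; rcases i with i | i <;> simp
theorem eV_smul (c : F) (a : Fin n → F) : eV (c • a) = c • eV a := by
  funext i; rcases i with i | i <;> simp
theorem eV_zero : eV (0 : Fin n → F) = 0 := by
  funext i; rcases i with i | i <;> simp
theorem fV_add (a b : Fin n → F) : fV (a + b) = fV a + fV b := by
  funext i; rcases i with i | i <;> simp
theorem fV_sub (a b : Fin n → F) : fV (a - b) = fV a - fV b := by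
  funext i; rcases i with i | i <;> simp
theorem fV_neg (a : Fin n → F) : fV (-a) = -fV a := by
  funext i; rcases i with i | i <;> simp
theorem fV_smul (c : F) (a : Fin n → F) : fV (c • a) = c • fV a := by
  funext i; rcases i with i | i <;> simp
theorem fV_zero : fV (0 : Fin n → F) = 0 := by
  funext i; rcases i with i | i <;> simp

theorem eV_injective : Function.Injective (eV : (Fin n → F) → _) := by
  intro a b h
  funext i
  exact congrFun h (Sum.inl i)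

theorem fV_injective : Function.Injective (fV : (Fin n → F) → _) := by
  intro a b h
  funext i
  exact congrFun h (Sum.inr i)

/-- values of the form: `f((a,b),(c,d)) = b⬝c - a⬝d` -/
theorem form_ee (a b : Fin n → F) : Cfsg.sympForm n F (eV a) (eV b) = 0 := by
  rw [sympForm_eq_sum]; simp
theorem form_ff (a b : Fin n → F) : Cfsg.sympForm n F (fV a) (fV b) = 0 := by
  rw [sympForm_eq_sum]; simp
theorem form_fe (a b : Fin n → F) : Cfsg.sympForm n F (fV a) (eV b) = a ⬝ᵥ b := by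
  rw [sympForm_eq_sum]; simp [dotProduct]
theorem form_ef (a b : Fin n → F) : Cfsg.sympForm n F (eV a) (fV b) = -(a ⬝ᵥ b) := by
  rw [sympForm_eq_sum]; simp [dotProduct]

/-- Levi element `diag(g, g⁻ᵀ)`; `gi` is the inverse of `g`. -/
def Lv (g gi : Matrix (Fin n) (Fin n) F) (h : g * gi = 1) : Sp n F :=
  ⟨Matrix.fromBlocks g 0 0 giᵀ, by
    have h' : gi * g = 1 := mul_eq_one_comm.mp h
    rw [SymplecticGroup.fromBlocks_mem_iff]
    refine ⟨by simp, by simp, ?_⟩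
    rw [← Matrix.transpose_mul, h']
    simp⟩

theorem Lv_coe (g gi : Matrix (Fin n) (Fin n) F) (h : g * gi = 1) :
    (Lv g gi h : Matrix (Fin n ⊕ Fin n) (Fin n ⊕ Fin n) F) = Matrix.fromBlocks g 0 0 giᵀ := rfl

theorem Lv_eV (g gi : Matrix (Fin n) (Fin n) F) (h : g * gi = 1) (a : Fin n → F) :
    (Lv g gi h : Matrix (Fin n ⊕ Fin n) (Fin n ⊕ Fin n) F) *ᵥ eV a = eV (g *ᵥ a) := by
  rw [Lv_coe, eV, Matrix.fromBlocks_mulVec]
  simp [eV]

theorem Lv_fV (g gi : Matrix (Fin n) (Fin n) F) (h : g * gi = 1) (b : Fin n → F) :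
    (Lv g gi h : Matrix (Fin n ⊕ Fin n) (Fin n ⊕ Fin n) F) *ᵥ fV b = fV (giᵀ *ᵥ b) := by
  rw [Lv_coe, fV, Matrix.fromBlocks_mulVec]
  simp [fV]

theorem sp_ext_ef {g h : Sp n F}
    (he : ∀ a : Fin n → F, (g : Matrix (Fin n ⊕ Fin n) (Fin n ⊕ Fin n) F) *ᵥ eV a =
      (h : Matrix (Fin n ⊕ Fin n) (Fin n ⊕ Fin n) F) *ᵥ eV a)
    (hf : ∀ a : Fin n → F, (g : Matrix (Fin n ⊕ Fin n) (Fin n ⊕ Fin n) F) *ᵥ fV a =
      (h : Matrix (Fin n ⊕ Fin n) (Fin n ⊕ Fin n) F) *ᵥ fV a) : g = h := by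
  apply sp_ext
  intro v
  rw [eV_add_fV v, Matrix.mulVec_add, Matrix.mulVec_add, he, hf]

theorem Lv_inv (g gi : Matrix (Fin n) (Fin n) F) (h : g * gi = 1) :
    (Lv g gi h)⁻¹ = Lv gi g (mul_eq_one_comm.mp h) := by
  have h' : gi * g = 1 := mul_eq_one_comm.mp h
  rw [inv_eq_iff_mul_eq_one]
  apply sp_ext_ef
  · intro a
    rw [sp_coe_mul_mulVec, Lv_eV, Lv_eV, Matrix.mulVec_mulVec, h]
    simp
  · intro a
    rw [sp_coe_mul_mulVec, Lv_fV, Lv_fV, Matrix.mulVec_mulVec, ← Matrix.transpose_mul, h]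
    simp

/-- the element `J : (a, b) ↦ (-b, a)` -/
def Jel (n : ℕ) (F : Type*) [Field F] : Sp n F := ⟨Matrix.J (Fin n) F, SymplecticGroup.J_mem _ _⟩

theorem Jel_eV (a : Fin n → F) :
    (Jel n F : Matrix (Fin n ⊕ Fin n) (Fin n ⊕ Fin n) F) *ᵥ eV a = fV a := by
  change Matrix.J (Fin n) F *ᵥ eV a = fV a
  rw [Matrix.J, eV, Matrix.fromBlocks_mulVec]
  simp [fV]

theorem Jel_fV (a : Fin n → F) :
    (Jel n F : Matrix (Fin n ⊕ Fin n) (Fin n ⊕ Fin n) F) *ᵥ fV a = eV (-a) := by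
  change Matrix.J (Fin n) F *ᵥ fV a = eV (-a)
  rw [Matrix.J, fV, Matrix.fromBlocks_mulVec]
  simp [eV, Matrix.neg_mulVec]

/-- inverse of `1 - Nup` -/
noncomputable def Ui (n : ℕ) (F : Type*) [Field F] : Matrix (Fin n) (Fin n) F := (1 - Nup n F)⁻¹

theorem U_mul_Ui : (1 - Nup n F) * Ui n F = 1 := by
  rw [Ui]
  apply Matrix.mul_nonsing_inv
  rw [det_one_sub_Nup]
  exact isUnit_one

theorem Ui_mul_U : Ui n F * (1 - Nup n F) = 1 := mul_eq_one_comm.mp U_mul_Ui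

theorem Nup_transpose : (Nup n F)ᵀ = Nlow n F := by
  ext i j
  simp [Nup, Nlow, Matrix.transpose_apply]

/-- `y = diag(1 - Nup, (1 - Nup)⁻ᵀ)` -/
noncomputable def yEl (n : ℕ) (F : Type*) [Field F] : Sp n F := Lv (1 - Nup n F) (Ui n F) U_mul_Ui

theorem yEl_eV (a : Fin n → F) :
    (yEl n F : Matrix (Fin n ⊕ Fin n) (Fin n ⊕ Fin n) F) *ᵥ eV a = eV ((1 - Nup n F) *ᵥ a) :=
  Lv_eV _ _ _ a

theorem yEl_fV (a : Fin n → F) :
    (yEl n F : Matrix (Fin n ⊕ Fin n) (Fin n ⊕ Fin n) F) *ᵥ fV a = fV ((Ui n F)ᵀ *ᵥ a) :=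
  Lv_fV _ _ _ a

theorem yEl_inv_eV (a : Fin n → F) :
    ((yEl n F)⁻¹ : Sp n F).1 *ᵥ eV a = eV (Ui n F *ᵥ a) := by
  rw [yEl, Lv_inv]
  exact Lv_eV _ _ _ a

theorem yEl_inv_fV (a : Fin n → F) :
    ((yEl n F)⁻¹ : Sp n F).1 *ᵥ fV a = fV ((1 - Nlow n F) *ᵥ a) := by
  rw [yEl, Lv_inv, ← Nup_transpose]
  have := Lv_fV (Ui n F) (1 - Nup n F) Ui_mul_U a
  rw [Matrix.transpose_sub, Matrix.transpose_one] at this
  exact this

/-- the subgroup of `SL_n(F)` induced on `E = {(a,0)}` by the elements of `H` stabilising `E` -/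
def indE (H : Subgroup (Sp n F)) : Subgroup (Matrix.SpecialLinearGroup (Fin n) F) where
  carrier := {g | ∃ k ∈ H, ∀ a : Fin n → F,
    (k : Matrix (Fin n ⊕ Fin n) (Fin n ⊕ Fin n) F) *ᵥ eV a =
      eV ((g : Matrix (Fin n) (Fin n) F) *ᵥ a)}
  mul_mem' := by
    rintro g g' ⟨k, hk, h⟩ ⟨k', hk', h'⟩
    refine ⟨k * k', H.mul_mem hk hk', fun a => ?_⟩
    rw [sp_coe_mul_mulVec, h', h, Matrix.SpecialLinearGroup.coe_mul, Matrix.mulVec_mulVec]
  one_mem' := ⟨1, H.one_mem, fun a => by simp⟩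
  inv_mem' := by
    rintro g ⟨k, hk, h⟩
    refine ⟨k⁻¹, H.inv_mem hk, fun a => ?_⟩
    have h1 : a = (g : Matrix (Fin n) (Fin n) F) *ᵥ
        (((g⁻¹ : Matrix.SpecialLinearGroup (Fin n) F) : Matrix (Fin n) (Fin n) F) *ᵥ a) := by
      rw [Matrix.mulVec_mulVec, ← Matrix.SpecialLinearGroup.coe_mul, mul_inv_cancel]
      simp
    conv_lhs => rw [h1, ← h, sp_inv_mulVec]

theorem mem_indE {H : Subgroup (Sp n F)} {g : Matrix.SpecialLinearGroup (Fin n) F} :
    g ∈ indE H ↔ ∃ k ∈ H, ∀ a : Fin n → F,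
      (k : Matrix (Fin n ⊕ Fin n) (Fin n ⊕ Fin n) F) *ᵥ eV a =
        eV ((g : Matrix (Fin n) (Fin n) F) *ᵥ a) := Iff.rfl

end Cfsg.Agent.Lib.Helper46.SpGen
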