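import Cfsg.Agent.Lib.Helper46.SpGen.Defs

set_option autoImplicit false
set_option linter.unusedSimpArgs false

namespace Cfsg.Agent.Lib.Helper46.SpGen
open Matrix Cfsg
open Cfsg.Agent.Lib.Helper17 Cfsg.Agent.Lib.Helper17.SympRoot
open Cfsg.Agent.Lib.Helper46

variable {n : ℕ} {F : Type*} [Field F]

theorem tv_pow (p : Fin n ⊕ Fin n → F) (c : F) (k : ℕ) : tv p c ^ k = tv p (k * c) := by
  induction k with
  | zero => simp [tv_zero]
  | succ k ih =>
    rw [pow_succ, ih, tv_mul]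
    congr 1
    push_cast
    ring

theorem R_cubic (l : Fin n) (κ : F) (R : Matrix (Fin n ⊕ Fin n) (Fin n ⊕ Fin n) F)
    (hR : R = (tv (fV (Pi.single l 1)) κ * tv (eV (Pi.single l 1)) 1 : Sp n F).1) :
    (R - 1) * (R * R - (2 - κ) • R + 1) = 0 := by
  have key : ∀ x : Fin n ⊕ Fin n → F, R *ᵥ x =
      x + Cfsg.sympForm n F x (eV (Pi.single l 1)) • eV (Pi.single l 1) +
        (κ * (Cfsg.sympForm n F x (fV (Pi.single l 1)) -
          Cfsg.sympForm n F x (eV (Pi.single l 1)))) • fV (Pi.single l 1) := by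
    intro x
    rw [hR]
    erw [sp_coe_mul_mulVec]
    simp only [tv_mulVec, sympForm_add_left, sympForm_smul_left, form_ee, form_ef, form_fe,
      form_ff]
    simp only [single_one_dotProduct, Pi.single_eq_same]
    module
  rw [Matrix.ext_iff_mulVec]
  intro x
  simp only [← Matrix.mulVec_mulVec, Matrix.sub_mulVec, Matrix.add_mulVec, Matrix.smul_mulVec,
    Matrix.one_mulVec, Matrix.zero_mulVec, key, sympForm_add_left, sympForm_sub_left,
    sympForm_smul_left, form_ee, form_ef, form_fe, form_ff]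
  simp only [single_one_dotProduct, Pi.single_eq_same]
  module

theorem extract [Fintype F] (H : Subgroup (Sp n F)) (z l : Fin n) (hzl : z ≠ l) (κ β : F)
    (hκ0 : κ ≠ 0) (hκ4 : κ ≠ 4)
    (h : tv (fV (Pi.single l 1)) κ * tv (eV (Pi.single l 1)) 1 * tv (fV (Pi.single z 1)) β ∈ H) :
    tv (fV (Pi.single l 1)) κ * tv (eV (Pi.single l 1)) 1 ∈ H ∧ tv (fV (Pi.single z 1)) β ∈ H := by
  obtain ⟨R, hRdef⟩ : ∃ R : Sp n F, R = tv (fV (Pi.single l 1)) κ * tv (eV (Pi.single l 1)) 1 :=
    ⟨_, rfl⟩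
  obtain ⟨t, htdef⟩ : ∃ t : Sp n F, t = tv (fV (Pi.single z 1)) β := ⟨_, rfl⟩
  rw [← hRdef, ← htdef] at h ⊢
  have hcomm : Commute R t := by
    rw [hRdef, htdef]
    have h1 : Cfsg.sympForm n F (fV (Pi.single l 1)) (fV (Pi.single z 1)) = 0 := form_ff _ _
    have h2 : Cfsg.sympForm n F (eV (Pi.single l 1)) (fV (Pi.single z 1)) = 0 := by
      rw [form_ef]; simp [hzl, hzl.symm]
    exact Commute.mul_left (tv_comm h1 κ β) (tv_comm h2 1 β)
  have h1 : t ^ (Fintype.card F ^ 2) = 1 := by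
    rw [htdef, tv_pow]
    push_cast
    rw [Nat.cast_card_eq_zero F]
    simp [tv_zero]
  have h3 : R ^ (Fintype.card F ^ 2) = R := by
    apply Subtype.ext
    rw [SubmonoidClass.coe_pow]
    apply cubic_pow_card_sq _ (2 - κ)
    · intro h
      apply hκ0
      linear_combination -h
    · intro h
      apply hκ4
      linear_combination -h
    · exact R_cubic l κ _ (by rw [hRdef])
  have h4 : R ∈ H := by
    have := H.pow_mem h (Fintype.card F ^ 2)
    rw [hcomm.mul_pow, h1, h3, mul_one] at this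
    exact this
  refine ⟨h4, ?_⟩
  have := H.mul_mem (H.inv_mem h4) h
  rwa [inv_mul_cancel_left] at this

end Cfsg.Agent.Lib.Helper46.SpGen
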