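import Cfsg.Agent.Lib.Helper46.SpGen.Trans

set_option autoImplicit false
set_option linter.unusedSimpArgs false

namespace Cfsg.Agent.Lib.Helper46.SpGen
open Matrix Cfsg
open Cfsg.Agent.Lib.Helper17 Cfsg.Agent.Lib.Helper17.SympRoot
open Cfsg.Agent.Lib.Helper46

variable {n : ℕ} {F : Type*} [Field F]

private theorem step_translate (H : Subgroup (Sp n F))
    (hEall : ∀ (w : Fin n → F) (c : F), tv (eV w) c ∈ H) (γ : F) (a b d : Fin n → F)
    (hbd : b ⬝ᵥ d ≠ 0) (h : tv (eV a + fV b) γ ∈ H) : tv (eV (a + d) + fV b) γ ∈ H := by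
  have h1 := H.mul_mem (H.mul_mem (hEall d (b ⬝ᵥ d)⁻¹) h) (H.inv_mem (hEall d (b ⬝ᵥ d)⁻¹))
  rw [conj_tv, tv_mulVec, sympForm_add_left, form_ee, form_fe, zero_add, inv_mul_cancel₀ hbd,
    one_smul] at h1
  have h2 : eV (a + d) + fV b = eV a + fV b + eV d := by
    rw [eV_add]; abel
  rw [h2]
  exact h1

private theorem translate_all (H : Subgroup (Sp n F))
    (hEall : ∀ (w : Fin n → F) (c : F), tv (eV w) c ∈ H) (γ : F) (a b : Fin n → F)
    (hb : b ≠ 0) (h : tv (eV a + fV b) γ ∈ H) (a' : Fin n → F) : tv (eV a' + fV b) γ ∈ H := by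
  obtain ⟨i, hi⟩ : ∃ i, b i ≠ 0 := by
    by_contra hcon
    push Not at hcon
    exact hb (funext hcon)
  have h0 : b ⬝ᵥ (Pi.single i 1 : Fin n → F) ≠ 0 := by
    rw [dotProduct_single, mul_one]; exact hi
  by_cases hd : b ⬝ᵥ (a' - a) = 0
  · have h1 : b ⬝ᵥ (a' - a - Pi.single i 1) ≠ 0 := by
      rw [dotProduct_sub, hd, zero_sub]
      exact neg_ne_zero.2 h0
    have h2 := step_translate H hEall γ _ b _ h0 (step_translate H hEall γ a b _ h1 h)
    have h3 : a + (a' - a - Pi.single i 1) + Pi.single i 1 = a' := by abel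
    rw [h3] at h2
    exact h2
  · have h2 := step_translate H hEall γ a b _ hd h
    have h3 : a + (a' - a) = a' := by abel
    rw [h3] at h2
    exact h2

theorem gen_all [Fintype F] (hn : 2 ≤ n) (H : Subgroup (Sp n F)) (hE : indE H = ⊤)
    (hEall : ∀ (w : Fin n → F) (c : F), tv (eV w) c ∈ H)
    (x : Fin n ⊕ Fin n → F) (hx : ∃ i, x (Sum.inr i) ≠ 0) (γ : F) (hγ : γ ≠ 0)
    (h2 : tv x γ ∈ H) : ∀ (v : Fin n ⊕ Fin n → F) (c : F), tv v c ∈ H := by
  obtain ⟨a0, b0, hb0, hx0⟩ : ∃ a0 b0 : Fin n → F, b0 ≠ 0 ∧ x = eV a0 + fV b0 := by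
    refine ⟨_, _, ?_, eV_add_fV x⟩
    obtain ⟨i, hi⟩ := hx
    intro h
    exact hi (congrFun h i)
  rw [hx0] at h2
  -- all vectors with nonzero `fV`-part, parameter `γ`
  have hall : ∀ a b : Fin n → F, b ≠ 0 → tv (eV a + fV b) γ ∈ H := by
    intro a b hb
    obtain ⟨g, hg⟩ := sl_trans_T hn b b0 hb hb0
    have hgE : g ∈ indE H := by rw [hE]; exact Subgroup.mem_top _
    obtain ⟨k, hk, hka⟩ := mem_indE.1 hgE
    have h3 : k * tv (eV a0 + fV b0) γ * k⁻¹ ∈ H := H.mul_mem (H.mul_mem hk h2) (H.inv_mem hk)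
    rw [conj_tv] at h3
    obtain ⟨y, hy⟩ : ∃ y, y = (k : Matrix (Fin n ⊕ Fin n) (Fin n ⊕ Fin n) F) *ᵥ (eV a0 + fV b0) :=
      ⟨_, rfl⟩
    rw [← hy] at h3
    have hyb : (fun i => y (Sum.inr i)) = b := by
      have h4 : ∀ w : Fin n → F, (fun i => y (Sum.inr i)) ⬝ᵥ ((g : Matrix (Fin n) (Fin n) F) *ᵥ w) =
          b ⬝ᵥ ((g : Matrix (Fin n) (Fin n) F) *ᵥ w) := by
        intro w
        have h5 := sp_sympForm n k (eV a0 + fV b0) (eV w)
        rw [← hy, hka, sympForm_add_left, form_ee, form_fe, zero_add, eV_add_fV y,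
          sympForm_add_left, form_ee, form_fe, zero_add, ← hg] at h5
        rw [h5, Matrix.dotProduct_mulVec, Matrix.mulVec_transpose]
      funext i
      have h6 := h4 (((g⁻¹ : Matrix.SpecialLinearGroup (Fin n) F) : Matrix (Fin n) (Fin n) F) *ᵥ
        Pi.single i 1)
      rw [Matrix.mulVec_mulVec, ← Matrix.SpecialLinearGroup.coe_mul, mul_inv_cancel,
        Matrix.SpecialLinearGroup.coe_one, Matrix.one_mulVec, dotProduct_single, dotProduct_single,
        mul_one, mul_one] at h6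
      exact h6
    rw [eV_add_fV y, hyb] at h3
    exact translate_all H hEall γ _ b hb h3 a
  intro v c
  by_cases hv : (fun i => v (Sum.inr i)) = 0
  · have h3 := eV_add_fV v
    rw [hv, fV_zero, add_zero] at h3
    rw [h3]
    exact hEall _ c
  · have key : ∀ t : F, tv v (t ^ 2 * γ) ∈ H := by
      intro t
      by_cases ht : t = 0
      · rw [ht]
        simp only [ne_eq, OfNat.ofNat_ne_zero, not_false_eq_true, zero_pow, zero_mul, tv_zero]
        exact H.one_mem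
      · rw [← tv_smul, eV_add_fV v, smul_add, ← eV_smul, ← fV_smul]
        exact hall _ _ (smul_ne_zero ht hv)
    obtain ⟨s, t, hst⟩ := sum_two_sq (c / γ)
    have hc : c = s ^ 2 * γ + t ^ 2 * γ := by
      rw [← add_mul, ← hst, div_mul_cancel₀ _ hγ]
    rw [hc, ← tv_mul]
    exact H.mul_mem (key s) (key t)

end Cfsg.Agent.Lib.Helper46.SpGen
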