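import Cfsg.Agent.Lib.Helper46.SpGen.Trans

set_option autoImplicit false
set_option linter.unusedSimpArgs false

namespace Cfsg.Agent.Lib.Helper46.SpGen
open Matrix Cfsg
open Cfsg.Agent.Lib.Helper17 Cfsg.Agent.Lib.Helper17.SympRoot
open Cfsg.Agent.Lib.Helper46

variable {n : ℕ} {F : Type*} [Field F]

private theorem tv_zero_vec (c : F) : tv (0 : Fin n ⊕ Fin n → F) c = 1 := by
  apply sp_ext
  intro v
  rw [tv_mulVec]
  simp

theorem gen_E [Fintype F] (hn : 2 ≤ n) (H : Subgroup (Sp n F)) (hE : indE H = ⊤)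
    (e : Fin n → F) (he : e ≠ 0) (γ : F) (hγ : γ ≠ 0) (h1 : tv (eV e) γ ∈ H) :
    ∀ (w : Fin n → F) (c : F), tv (eV w) c ∈ H := by
  have key : ∀ (w : Fin n → F) (a : F), tv (eV w) (a ^ 2 * γ) ∈ H := by
    intro w a
    by_cases haw : a • w = 0
    · rw [← tv_smul, ← eV_smul, haw, eV_zero, tv_zero_vec]
      exact H.one_mem
    · obtain ⟨g, hg⟩ := sl_trans hn e (a • w) he haw
      have hgE : g ∈ indE H := by rw [hE]; exact Subgroup.mem_top _
      obtain ⟨k, hk, hka⟩ := mem_indE.1 hgE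
      have h2 : k * tv (eV e) γ * k⁻¹ ∈ H := H.mul_mem (H.mul_mem hk h1) (H.inv_mem hk)
      rw [conj_tv, hka, hg, eV_smul, tv_smul] at h2
      exact h2
  intro w c
  obtain ⟨a, b, hab⟩ := sum_two_sq (c / γ)
  have hc : c = a ^ 2 * γ + b ^ 2 * γ := by
    rw [← add_mul, ← hab, div_mul_cancel₀ _ hγ]
  rw [hc, ← tv_mul]
  exact H.mul_mem (key w a) (key w b)

end Cfsg.Agent.Lib.Helper46.SpGen
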