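import Cfsg.Agent.Lib.Helper46.SpGen.Defs

set_option autoImplicit false
set_option linter.unusedSimpArgs false

namespace Cfsg.Agent.Lib.Helper46.SpGen
open Matrix Cfsg
open Cfsg.Agent.Lib.Helper17 Cfsg.Agent.Lib.Helper17.SympRoot
open Cfsg.Agent.Lib.Helper46

variable {n : ℕ} {F : Type*} [Field F]

private theorem oneSubNup_mulVec_single (j j' : Fin n) (h : (j' : ℕ) = j + 1) :
    (1 - Nup n F) *ᵥ Pi.single j' 1 = Pi.single j' 1 - Pi.single j 1 := by
  rw [Matrix.sub_mulVec, Matrix.one_mulVec]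
  congr 1
  ext r
  simp only [Matrix.mulVec_single_one, Nup, Pi.single_apply, Fin.ext_iff, h, Matrix.col,
    Matrix.of_apply, Matrix.transpose_apply]
  by_cases h' : (r : ℕ) = j
  · rw [if_pos h', if_pos (by omega)]
  · rw [if_neg h', if_neg (by omega)]

private theorem single_vecMul_oneSubNup (l : Fin n) (hl : (l : ℕ) + 1 = n) :
    Pi.single l 1 ᵥ* (1 - Nup n F) = Pi.single l 1 := by
  ext r
  rw [Matrix.single_one_vecMul]
  change (1 - Nup n F) l r = _
  rw [oneSubNup_row_l l hl, Pi.single_apply]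

private theorem down (K : Subgroup (Matrix.SpecialLinearGroup (Fin n) F))
    (u : Matrix.SpecialLinearGroup (Fin n) F) (hu : u ∈ K)
    (hucoe : (u : Matrix (Fin n) (Fin n) F) = 1 - Nup n F)
    (o l : Fin n) (ho : (o : ℕ) + 2 = n) (hl : (l : ℕ) + 1 = n)
    (h : ∀ s : F, Tm K (s • Pi.single o 1) (Pi.single l 1)) :
    ∀ (k : ℕ) (j : Fin n), (j : ℕ) + k = o → ∀ s : F, Tm K (s • Pi.single j 1) (Pi.single l 1) := by
  intro k
  induction k with
  | zero =>
    intro j hj s
    have : j = o := Fin.ext (by omega)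
    rw [this]
    exact h s
  | succ k ih =>
    intro j hj s
    have hj'lt : (j : ℕ) + 1 < n := by omega
    have P := ih ⟨(j : ℕ) + 1, hj'lt⟩ (by simp only; omega) s
    have hjl : j ≠ l := by
      intro h'
      have := congrArg Fin.val h'
      omega
    have hj'l : (⟨(j : ℕ) + 1, hj'lt⟩ : Fin n) ≠ l := by
      intro h'
      have := congrArg Fin.val h'
      simp only at this
      omega
    have k1 : Tm K ((u : Matrix (Fin n) (Fin n) F) *ᵥ (s • Pi.single ⟨(j : ℕ) + 1, hj'lt⟩ 1))
        (Pi.single l 1) := by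
      apply Tm.conj hu
      rw [hucoe, single_vecMul_oneSubNup l hl]
      exact P
    rw [hucoe, Matrix.mulVec_smul, oneSubNup_mulVec_single j ⟨(j : ℕ) + 1, hj'lt⟩ rfl] at k1
    have k2 := (k1.neg_left (by
      simp [dotProduct_sub, hjl, hjl.symm, hj'l, hj'l.symm])).add_left P (by
      simp [hj'l, hj'l.symm])
    exact k2.congr (by rw [smul_sub]; abel) rfl

theorem sl_top_of [Fintype F] (hn : 2 ≤ n) (K : Subgroup (Matrix.SpecialLinearGroup (Fin n) F))
    (u v : Matrix.SpecialLinearGroup (Fin n) F) (hu : u ∈ K) (hv : v ∈ K)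
    (hucoe : (u : Matrix (Fin n) (Fin n) F) = 1 - Nup n F)
    (hvcoe : (v : Matrix (Fin n) (Fin n) F) = 1 - Nlow n F)
    (o l : Fin n) (ho : (o : ℕ) + 2 = n) (hl : (l : ℕ) + 1 = n)
    (h : ∀ s : F, Tm K (s • Pi.single o 1) (Pi.single l 1)) : K = ⊤ := by
  have hz : ∀ s : F, Tm K (s • Pi.single (⟨0, by omega⟩ : Fin n) 1) (Pi.single l 1) :=
    down K u hu hucoe o l ho hl h o ⟨0, by omega⟩ (by simp)
  have hzl : (⟨0, by omega⟩ : Fin n) ≠ l := by
    intro h'
    have := congrArg Fin.val h'
    simp only at this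
    omega
  rcases Nat.lt_or_ge n 3 with hlt | hge
  · obtain rfl : n = 2 := by omega
    have hl1 : l = 1 := Fin.ext (by simp; omega)
    subst hl1
    have hz' : ∀ s : F, Tm K (s • Pi.single (0 : Fin 2) 1) (Pi.single 1 1) := hz
    obtain ⟨x, hxK, hx⟩ := hz' 1
    -- the Weyl element
    have hw : (x * v * x) ∈ K := K.mul_mem (K.mul_mem hxK hv) hxK
    have hwcoe : ((x * v * x : Matrix.SpecialLinearGroup (Fin 2) F) : Matrix (Fin 2) (Fin 2) F) =
        !![0, 1; -1, 0] := by
      rw [Matrix.SpecialLinearGroup.coe_mul, Matrix.SpecialLinearGroup.coe_mul, hx, hvcoe]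
      ext i j
      fin_cases i <;> fin_cases j <;>
        simp [Matrix.mul_apply, Fin.sum_univ_two, vecMulVec_apply, Nlow, Matrix.one_apply]
    have hlow : ∀ s : F, Tm K (s • Pi.single (1 : Fin 2) 1) (Pi.single 0 1) := by
      intro s
      have k1 : Tm K (((x * v * x : Matrix.SpecialLinearGroup (Fin 2) F) :
          Matrix (Fin 2) (Fin 2) F) *ᵥ ((-s) • Pi.single (0 : Fin 2) 1)) (Pi.single 0 1) := by
        apply Tm.conj hw
        refine (hz' (-s)).congr rfl ?_
        rw [hwcoe]
        ext i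
        fin_cases i <;> simp [Matrix.vecMul, dotProduct, Fin.sum_univ_two]
      refine k1.congr ?_ rfl
      rw [hwcoe]
      ext i
      fin_cases i <;> simp [Matrix.mulVec, dotProduct, Fin.sum_univ_two]
    apply Cfsg.Agent.Lib.Helper45.eq_top_of_transvections
    intro i j hij c
    have key : Tm K (c • Pi.single i 1) (Pi.single j 1) := by
      fin_cases i <;> fin_cases j
      · exact absurd rfl hij
      · exact hz' c
      · exact hlow c
      · exact absurd rfl hij
    obtain ⟨g, hgK, hg⟩ := key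
    have : g = Matrix.SpecialLinearGroup.transvection hij c := by
      apply Subtype.ext
      rw [hg, vecMulVec_smul_single_single]
      rfl
    rw [← this]
    exact hgK
  · obtain ⟨μ, _, _, hgen⟩ := exists_primitive_ne_four (F := F)
    have h1 := stage1 hge K v hv hvcoe ⟨0, by omega⟩ l rfl hl (by
      have := hz 1
      rwa [one_smul] at this)
    exact stage2 hge K h1 ⟨0, by omega⟩ l hzl μ (hz μ) hgen

end Cfsg.Agent.Lib.Helper46.SpGen
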