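import Cfsg.Agent.Lib.Helper46.SpGen.Defs

set_option autoImplicit false
set_option linter.unusedSimpArgs false

namespace Cfsg.Agent.Lib.Helper46.SpGen
open Matrix Cfsg
open Cfsg.Agent.Lib.Helper17 Cfsg.Agent.Lib.Helper17.SympRoot
open Cfsg.Agent.Lib.Helper46

variable {n : ℕ} {F : Type*} [Field F]

theorem Nup_pow_n : Nup n F ^ n = 0 := by
  rw [Nup_pow]
  ext i j
  simp only [Matrix.of_apply, Matrix.zero_apply]
  rw [if_neg]
  have := j.2
  omega

theorem Ui_comm_Nup : Commute (Ui n F) (Nup n F) := by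
  have h1 : Commute (1 - Nup n F) (Nup n F) :=
    (Commute.one_left _).sub_left (Commute.refl _)
  have h2 : Ui n F * Nup n F = Nup n F * Ui n F := by
    calc Ui n F * Nup n F = Ui n F * Nup n F * ((1 - Nup n F) * Ui n F) := by
          rw [U_mul_Ui, Matrix.mul_one]
      _ = Ui n F * ((1 - Nup n F) * Nup n F) * Ui n F := by
          rw [h1.eq]; simp only [Matrix.mul_assoc]
      _ = (Ui n F * (1 - Nup n F)) * Nup n F * Ui n F := by simp only [Matrix.mul_assoc]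
      _ = Nup n F * Ui n F := by rw [Ui_mul_U, Matrix.one_mul]
  exact h2

theorem Ui_sub_one : Ui n F - 1 = Ui n F * Nup n F := by
  have : Ui n F * (1 - Nup n F) = 1 := Ui_mul_U
  rw [Matrix.mul_sub, Matrix.mul_one] at this
  rw [← this]
  abel

theorem Zpow (k : ℕ) : ((Ui n F)ᵀ - 1) ^ k = ((Ui n F)ᵀ) ^ k * (Nlow n F) ^ k := by
  have h : (Ui n F)ᵀ - 1 = (Ui n F - 1)ᵀ := by
    rw [Matrix.transpose_sub, Matrix.transpose_one]
  rw [h, Ui_sub_one, Ui_comm_Nup.eq, Matrix.transpose_mul, Nup_transpose]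
  have hc : Commute (Ui n F)ᵀ (Nlow n F) := by
    have := congrArg Matrix.transpose (Ui_comm_Nup (n := n) (F := F)).eq
    rw [Matrix.transpose_mul, Matrix.transpose_mul, Nup_transpose] at this
    exact this.symm
  exact hc.mul_pow k

theorem Nlow_pow_n : Nlow n F ^ n = 0 := by
  rw [Nlow_pow]
  ext i j
  simp only [Matrix.of_apply, Matrix.zero_apply]
  rw [if_neg]
  have := i.2
  omega

theorem UiT_last (l : Fin n) (hl : (l : ℕ) + 1 = n) :
    (Ui n F)ᵀ *ᵥ Pi.single l 1 = Pi.single l 1 := by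
  have h0 : Nlow n F *ᵥ Pi.single l 1 = 0 := by
    ext r
    rw [Matrix.mulVec_single_one, Matrix.col_apply]
    simp only [Nlow, Matrix.of_apply, Pi.zero_apply]
    rw [if_neg]
    have := r.2
    omega
  have h1 : (1 - Nlow n F) *ᵥ Pi.single l 1 = Pi.single l 1 := by
    rw [Matrix.sub_mulVec, Matrix.one_mulVec, h0, sub_zero]
  have h2 : (Ui n F)ᵀ * (1 - Nlow n F) = 1 := by
    have : (1 - Nlow n F) = (1 - Nup n F)ᵀ := by
      rw [Matrix.transpose_sub, Matrix.transpose_one, Nup_transpose]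
    rw [this, ← Matrix.transpose_mul, U_mul_Ui, Matrix.transpose_one]
  calc (Ui n F)ᵀ *ᵥ Pi.single l 1 = (Ui n F)ᵀ *ᵥ ((1 - Nlow n F) *ᵥ Pi.single l 1) := by rw [h1]
    _ = Pi.single l 1 := by rw [Matrix.mulVec_mulVec, h2, Matrix.one_mulVec]

theorem reg_u1 (l : Fin n) (hl : (l : ℕ) + 1 = n) :
    IsNilpotent (((yEl n F * tv (eV (Pi.single l 1)) 1 : Sp n F) :
      Matrix (Fin n ⊕ Fin n) (Fin n ⊕ Fin n) F) - 1) ∧
    (((yEl n F * tv (eV (Pi.single l 1)) 1 : Sp n F) :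
      Matrix (Fin n ⊕ Fin n) (Fin n ⊕ Fin n) F) - 1) ^ (2 * n - 1) ≠ 0 := by
  obtain ⟨N, hN⟩ : ∃ N : Matrix (Fin n ⊕ Fin n) (Fin n ⊕ Fin n) F,
      N = ((yEl n F * tv (eV (Pi.single l 1)) 1 : Sp n F) :
      Matrix (Fin n ⊕ Fin n) (Fin n ⊕ Fin n) F) - 1 := ⟨_, rfl⟩
  rw [← hN]
  obtain ⟨Z, hZ⟩ : ∃ Z : Matrix (Fin n) (Fin n) F, Z = (Ui n F)ᵀ - 1 := ⟨_, rfl⟩
  have hNe : ∀ a : Fin n → F, N *ᵥ eV a = eV ((-Nup n F) *ᵥ a) := by
    intro a
    rw [hN, Matrix.sub_mulVec, Matrix.one_mulVec, sp_coe_mul_mulVec, tv_mulVec, form_ee, mul_zero,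
      zero_smul, add_zero, yEl_eV, ← eV_sub, Matrix.sub_mulVec, Matrix.one_mulVec,
      Matrix.neg_mulVec]
    congr 1
    abel
  have hNf : ∀ b : Fin n → F, N *ᵥ fV b =
      fV (Z *ᵥ b) + eV (b l • ((1 - Nup n F) *ᵥ Pi.single l 1)) := by
    intro b
    have hZb : Z *ᵥ b = (Ui n F)ᵀ *ᵥ b - b := by rw [hZ, Matrix.sub_mulVec, Matrix.one_mulVec]
    rw [hN, Matrix.sub_mulVec, Matrix.one_mulVec, sp_coe_mul_mulVec, tv_mulVec, form_fe,
      dotProduct_single_one, one_mul, Matrix.mulVec_add, Matrix.mulVec_smul, yEl_eV, yEl_fV, hZb,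
      fV_sub, eV_smul]
    abel
  have hNek : ∀ (k : ℕ) (a : Fin n → F), (N ^ k) *ᵥ eV a = eV (((-Nup n F) ^ k) *ᵥ a) := by
    intro k
    induction k with
    | zero => intro a; simp
    | succ k ih =>
      intro a
      rw [pow_succ', ← Matrix.mulVec_mulVec, ih, hNe, Matrix.mulVec_mulVec, ← pow_succ']
  have hNfk : ∀ (k : ℕ) (b : Fin n → F), ∃ a : Fin n → F,
      (N ^ k) *ᵥ fV b = fV ((Z ^ k) *ᵥ b) + eV a := by
    intro k
    induction k with
    | zero => intro b; exact ⟨0, by simp [eV_zero]⟩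
    | succ k ih =>
      intro b
      obtain ⟨a, ha⟩ := ih b
      refine ⟨((Z ^ k) *ᵥ b) l • ((1 - Nup n F) *ᵥ Pi.single l 1) + (-Nup n F) *ᵥ a, ?_⟩
      rw [pow_succ', ← Matrix.mulVec_mulVec, ha, Matrix.mulVec_add, hNf, hNe,
        Matrix.mulVec_mulVec, ← pow_succ', add_assoc, ← eV_add]
  have hXn : (-Nup n F) ^ n = 0 := by
    rw [neg_pow, Nup_pow_n, mul_zero]
  have hZn : Z ^ n = 0 := by
    rw [hZ, Zpow, Nlow_pow_n, mul_zero]
  constructor
  · refine ⟨n + n, ?_⟩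
    rw [Matrix.ext_iff_mulVec]
    intro v
    rw [eV_add_fV v, Matrix.mulVec_add, Matrix.zero_mulVec, pow_add, ← Matrix.mulVec_mulVec,
      ← Matrix.mulVec_mulVec, hNek, hXn, Matrix.zero_mulVec, eV_zero, Matrix.mulVec_zero, zero_add]
    obtain ⟨a, ha⟩ := hNfk n (fun i => v (Sum.inr i))
    rw [ha, hZn, Matrix.zero_mulVec, fV_zero, zero_add, hNek, hXn, Matrix.zero_mulVec, eV_zero]
  · intro h0
    obtain ⟨m, hm⟩ : ∃ m : ℕ, n = m + 1 := ⟨l, hl.symm⟩
    obtain ⟨z, hz⟩ : ∃ z : Fin n, (z : ℕ) = 0 := ⟨⟨0, by omega⟩, rfl⟩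
    have e : 2 * n - 1 = m + (1 + m) := by omega
    have h1 := congrArg (fun M => M *ᵥ fV (Pi.single z 1)) h0
    simp only [Matrix.zero_mulVec] at h1
    rw [e, pow_add, pow_add, pow_one, ← Matrix.mulVec_mulVec, ← Matrix.mulVec_mulVec] at h1
    obtain ⟨a, ha⟩ := hNfk m (Pi.single z 1)
    have hZm : (Z ^ m) *ᵥ Pi.single z 1 = Pi.single l 1 := by
      rw [hZ, Zpow, ← Matrix.mulVec_mulVec]
      have h2 : (Nlow n F ^ m) *ᵥ Pi.single z 1 = Pi.single l 1 := by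
        ext r
        rw [Matrix.mulVec_single_one, Matrix.col_apply, Nlow_pow]
        simp only [Matrix.of_apply, Pi.single_apply]
        by_cases hr : r = l
        · rw [if_pos hr, if_pos]
          rw [hr]; omega
        · rw [if_neg hr, if_neg]
          intro h'
          apply hr
          apply Fin.ext
          omega
      rw [h2]
      have h3 : ∀ k : ℕ, ((Ui n F)ᵀ ^ k) *ᵥ Pi.single l 1 = Pi.single l 1 := by
        intro k
        induction k with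
        | zero => rw [pow_zero, Matrix.one_mulVec]
        | succ k ih => rw [pow_succ, ← Matrix.mulVec_mulVec, UiT_last l hl, ih]
      exact h3 m
    have hZl : Z *ᵥ Pi.single l 1 = 0 := by
      rw [hZ, Matrix.sub_mulVec, Matrix.one_mulVec, UiT_last l hl, sub_self]
    rw [ha, hZm, Matrix.mulVec_add, hNf, hNe, hZl, fV_zero, zero_add, Pi.single_eq_same, one_smul,
      ← eV_add, hNek] at h1
    have h2 : ((-Nup n F) ^ m) *ᵥ ((1 - Nup n F) *ᵥ Pi.single l 1 + (-Nup n F) *ᵥ a) =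
        ((-Nup n F) ^ m) *ᵥ Pi.single l 1 := by
      have h3 : (-Nup n F) ^ m * (-Nup n F) = 0 := by
        rw [← pow_succ, ← hm, hXn]
      have h4 : (1 - Nup n F) = 1 + (-Nup n F) := by abel
      rw [Matrix.mulVec_add, Matrix.mulVec_mulVec, Matrix.mulVec_mulVec, h3, h4, Matrix.mul_add,
        h3, Matrix.mul_one, add_zero, Matrix.zero_mulVec, add_zero]
    rw [h2] at h1
    have h5 := congrFun h1 (Sum.inl z)
    rw [eV_inl] at h5
    have h6 : ((Nup n F ^ m) *ᵥ Pi.single l 1) z = 1 := by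
      rw [Matrix.mulVec_single_one, Matrix.col_apply, Nup_pow, Matrix.of_apply, if_pos (by omega)]
    rcases m.even_or_odd with hev | hod
    · rw [hev.neg_pow, h6] at h5
      exact one_ne_zero h5
    · rw [hod.neg_pow, Matrix.neg_mulVec, Pi.neg_apply, h6] at h5
      exact neg_ne_zero.mpr one_ne_zero h5

end Cfsg.Agent.Lib.Helper46.SpGen
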