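import Cfsg.Agent.Lib.Helper46.SpGen.Defs

set_option autoImplicit false
set_option linter.unusedSimpArgs false

namespace Cfsg.Agent.Lib.Helper46.SpGen
open Matrix Cfsg
open Cfsg.Agent.Lib.Helper17 Cfsg.Agent.Lib.Helper17.SympRoot
open Cfsg.Agent.Lib.Helper46

variable {n : ℕ} {F : Type*} [Field F]

/-- `x ↦ x + f(x,w) z + f(x,z) w + c f(x,z) z` (for `f(z,w) = 0`) -/
def Qel (z w : Fin n ⊕ Fin n → F) (c : F) : Sp n F := tv (z + w) 1 * tv z (c - 1) * tv w (-1)

theorem Qel_mulVec (z w : Fin n ⊕ Fin n → F) (hzw : Cfsg.sympForm n F z w = 0) (c : F)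
    (x : Fin n ⊕ Fin n → F) :
    (Qel z w c : Matrix (Fin n ⊕ Fin n) (Fin n ⊕ Fin n) F) *ᵥ x =
      x + Cfsg.sympForm n F x w • z + Cfsg.sympForm n F x z • w +
        (c * Cfsg.sympForm n F x z) • z := by
  have hwz : Cfsg.sympForm n F w z = 0 := by rw [sympForm_swap, hzw, neg_zero]
  simp only [Qel, sp_coe_mul_mulVec, tv_mulVec, sympForm_add_left, sympForm_add_right,
    sympForm_smul_left, hzw, hwz, sympForm_self]
  module

theorem Qel_conj (g : Sp n F) (z w : Fin n ⊕ Fin n → F) (c : F) :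
    g * Qel z w c * g⁻¹ = Qel ((g : Matrix (Fin n ⊕ Fin n) (Fin n ⊕ Fin n) F) *ᵥ z)
      ((g : Matrix (Fin n ⊕ Fin n) (Fin n ⊕ Fin n) F) *ᵥ w) c := by
  have e : g * Qel z w c * g⁻¹ =
      (g * tv (z + w) 1 * g⁻¹) * (g * tv z (c - 1) * g⁻¹) * (g * tv w (-1) * g⁻¹) := by
    rw [Qel]; group
  rw [e, conj_tv, conj_tv, conj_tv, Matrix.mulVec_add, Qel]

theorem Qel_mul (z w w' : Fin n ⊕ Fin n → F) (h : Cfsg.sympForm n F z w = 0)
    (h' : Cfsg.sympForm n F z w' = 0) (c c' : F) :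
    Qel z w c * Qel z w' c' = Qel z (w + w') (c + c' + Cfsg.sympForm n F w' w) := by
  have hwz : Cfsg.sympForm n F w z = 0 := by rw [sympForm_swap, h, neg_zero]
  have hwz' : Cfsg.sympForm n F w' z = 0 := by rw [sympForm_swap, h', neg_zero]
  apply sp_ext
  intro x
  rw [sp_coe_mul_mulVec, Qel_mulVec z w' h', Qel_mulVec z w h,
    Qel_mulVec z (w + w') (by rw [sympForm_add_right, h, h', add_zero])]
  simp only [sympForm_add_left, sympForm_add_right, sympForm_smul_left, h, h', hwz, hwz',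
    sympForm_self]
  module

theorem Qel_zero (z : Fin n ⊕ Fin n → F) : Qel z 0 0 = 1 := by
  apply sp_ext
  intro x
  rw [Qel_mulVec z 0 (sympForm_zero_right n z)]
  simp [sympForm_zero_right]

/-- a vector of the plane `⟨e_l, f_l⟩` -/
def pv (l : Fin n) (α η : F) : Fin n ⊕ Fin n → F :=
  α • eV (Pi.single l 1) + η • fV (Pi.single l 1)

theorem form_pv (o l : Fin n) (hol : o ≠ l) (α η : F) :
    Cfsg.sympForm n F (eV (Pi.single o 1)) (pv l α η) = 0 := by
  simp only [pv, sympForm_add_right, sympForm_smul_right, form_ee, form_ef]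
  simp [hol, hol.symm]

theorem R_pv (l : Fin n) (κ α η : F) :
    (tv (fV (Pi.single l 1)) κ * tv (eV (Pi.single l 1)) 1 : Sp n F).1 *ᵥ pv l α η =
      pv l (α + η) (-κ * α + (1 - κ) * η) := by
  simp only [pv]
  erw [sp_coe_mul_mulVec]
  simp only [tv_mulVec, sympForm_add_left, sympForm_smul_left, form_ee, form_ef, form_fe,
    form_ff]
  simp only [single_one_dotProduct, Pi.single_eq_same]
  module

theorem R_eo (o l : Fin n) (hol : o ≠ l) (κ : F) :
    (tv (fV (Pi.single l 1)) κ * tv (eV (Pi.single l 1)) 1 : Sp n F).1 *ᵥ eV (Pi.single o 1) =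
      eV (Pi.single o 1) := by
  erw [sp_coe_mul_mulVec]
  simp only [tv_mulVec, sympForm_add_left, sympForm_smul_left, form_ee, form_ef, form_fe,
    form_ff]
  simp [hol, hol.symm]

theorem warg (H : Subgroup (Sp n F)) (o l : Fin n) (hol : o ≠ l) (κ : F) (hκ0 : κ ≠ 0)
    (hgen : ∀ t : F, t ≠ 0 → ∃ k : ℕ, t = κ ^ k)
    (hR : tv (fV (Pi.single l 1)) κ * tv (eV (Pi.single l 1)) 1 ∈ H)
    (hσ : tv (eV (Pi.single l 1)) 1 * tv (eV (Pi.single l 1 - Pi.single o 1)) (-1) ∈ H) :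
    ∀ s : F, Tm (indE H) (s • Pi.single o 1) (Pi.single l 1) := by
  obtain ⟨R, hRdef⟩ : ∃ R : Sp n F, R = tv (fV (Pi.single l 1)) κ * tv (eV (Pi.single l 1)) 1 :=
    ⟨_, rfl⟩
  rw [← hRdef] at hR
  obtain ⟨z, hzdef⟩ : ∃ z : Fin n ⊕ Fin n → F, z = eV (Pi.single o 1) := ⟨_, rfl⟩
  have hzp : ∀ α η : F, Cfsg.sympForm n F z (pv l α η) = 0 := by
    intro α η; rw [hzdef]; exact form_pv o l hol α η
  have hRz : R.1 *ᵥ z = z := by rw [hRdef, hzdef]; exact R_eo o l hol κ
  have hRp : ∀ α η : F, R.1 *ᵥ pv l α η = pv l (α + η) (-κ * α + (1 - κ) * η) := by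
    intro α η; rw [hRdef]; exact R_pv l κ α η
  have hRiz : (R⁻¹ : Sp n F).1 *ᵥ z = z := by
    conv_lhs => rw [← hRz]
    exact sp_inv_mulVec n R z
  have hRip : ∀ α η : F, (R⁻¹ : Sp n F).1 *ᵥ pv l α η = pv l ((1 - κ) * α - η) (κ * α + η) := by
    intro α η
    have h1 := hRp ((1 - κ) * α - η) (κ * α + η)
    have e1 : (1 - κ) * α - η + (κ * α + η) = α := by ring
    have e2 : -κ * ((1 - κ) * α - η) + (1 - κ) * (κ * α + η) = η := by ring
    rw [e1, e2] at h1
    rw [← h1]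
    exact sp_inv_mulVec n R _
  have padd : ∀ α η α' η' : F, pv l α η + pv l α' η' = pv l (α + α') (η + η') := by
    intro α η α' η'
    simp only [pv]; module
  -- the set W
  obtain ⟨W, hW⟩ : ∃ W : F → F → Prop, ∀ α η, W α η ↔ ∃ c, Qel z (pv l α η) c ∈ H :=
    ⟨fun α η => ∃ c, Qel z (pv l α η) c ∈ H, fun _ _ => Iff.rfl⟩
  have Wadd : ∀ α η α' η', W α η → W α' η' → W (α + α') (η + η') := by
    intro α η α' η' h h'
    rw [hW] at h h' ⊢
    obtain ⟨c, hc⟩ := h
    obtain ⟨c', hc'⟩ := h'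
    have := H.mul_mem hc hc'
    rw [Qel_mul z _ _ (hzp _ _) (hzp _ _), padd] at this
    exact ⟨_, this⟩
  have Wzero : W 0 0 := by
    rw [hW]
    refine ⟨0, ?_⟩
    have : pv l (0 : F) 0 = 0 := by simp [pv]
    rw [this, Qel_zero]
    exact H.one_mem
  have Wneg : ∀ α η, W α η → W (-α) (-η) := by
    intro α η h
    rw [hW] at h ⊢
    obtain ⟨c, hc⟩ := h
    refine ⟨-c - Cfsg.sympForm n F (pv l (-α) (-η)) (pv l α η), ?_⟩
    have h1 : Qel z (pv l α η) c * Qel z (pv l (-α) (-η))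
        (-c - Cfsg.sympForm n F (pv l (-α) (-η)) (pv l α η)) = 1 := by
      rw [Qel_mul z _ _ (hzp _ _) (hzp _ _), padd]
      have e1 : α + -α = 0 := by ring
      have e2 : η + -η = 0 := by ring
      have e3 : c + (-c - Cfsg.sympForm n F (pv l (-α) (-η)) (pv l α η)) +
          Cfsg.sympForm n F (pv l (-α) (-η)) (pv l α η) = 0 := by ring
      have e4 : pv l (0 : F) 0 = 0 := by simp [pv]
      rw [e1, e2, e3, e4, Qel_zero]
    have h2 := eq_inv_of_mul_eq_one_right h1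
    rw [h2]
    exact H.inv_mem hc
  have WR : ∀ α η, W α η → W (α + η) (-κ * α + (1 - κ) * η) := by
    intro α η h
    rw [hW] at h ⊢
    obtain ⟨c, hc⟩ := h
    have := H.mul_mem (H.mul_mem hR hc) (H.inv_mem hR)
    rw [Qel_conj] at this
    erw [hRz, hRp] at this
    exact ⟨c, this⟩
  have WRi : ∀ α η, W α η → W ((1 - κ) * α - η) (κ * α + η) := by
    intro α η h
    rw [hW] at h ⊢
    obtain ⟨c, hc⟩ := h
    have := H.mul_mem (H.mul_mem (H.inv_mem hR) hc) (H.inv_mem (H.inv_mem hR))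
    rw [Qel_conj] at this
    erw [hRiz, hRip] at this
    exact ⟨c, this⟩
  have Wκ : ∀ α η, W α η → W (κ * α) (κ * η) := by
    intro α η h
    have h1 := Wadd _ _ _ _ (WR α η h) (WRi α η h)
    have h2 := Wadd _ _ _ _ (Wadd _ _ _ _ h h) (Wneg _ _ h1)
    have e1 : α + α + -(α + η + ((1 - κ) * α - η)) = κ * α := by ring
    have e2 : η + η + -(-κ * α + (1 - κ) * η + (κ * α + η)) = κ * η := by ring
    rwa [e1, e2] at h2
  have W10 : W 1 0 := by
    rw [hW]
    refine ⟨-1, ?_⟩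
    have : Qel z (pv l 1 0) (-1) =
        tv (eV (Pi.single l 1)) 1 * tv (eV (Pi.single l 1 - Pi.single o 1)) (-1) := by
      apply sp_ext
      intro x
      rw [Qel_mulVec z _ (hzp _ _), sp_coe_mul_mulVec]
      simp only [tv_mulVec, pv, hzdef, eV_sub, sympForm_add_left, sympForm_add_right,
        sympForm_sub_left, sympForm_sub_right, sympForm_smul_left, sympForm_smul_right, form_ee]
      module
    rw [this]
    exact hσ
  have W0κ : W 0 (-κ) := by
    have h1 := Wadd _ _ _ _ (WR 1 0 W10) (Wneg _ _ W10)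
    have e1 : (1 : F) + 0 + -1 = 0 := by ring
    have e2 : -κ * 1 + (1 - κ) * 0 + -0 = -κ := by ring
    rwa [e1, e2] at h1
  have W0pow : ∀ k : ℕ, W 0 (-κ * κ ^ k) := by
    intro k
    induction k with
    | zero => simpa using W0κ
    | succ k ih =>
      have := Wκ _ _ ih
      have e1 : κ * (0 : F) = 0 := by ring
      have e2 : κ * (-κ * κ ^ k) = -κ * κ ^ (k + 1) := by ring
      rwa [e1, e2] at this
  have W0 : ∀ η, W 0 η := by
    intro η
    by_cases hη : η = 0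
    · rw [hη]; exact Wzero
    · obtain ⟨k, hk⟩ := hgen (-η / κ) (div_ne_zero (neg_ne_zero.mpr hη) hκ0)
      have := W0pow k
      rw [← hk] at this
      have e : -κ * (-η / κ) = η := by field_simp
      rwa [e] at this
  intro s
  obtain ⟨g, hg⟩ := exists_sl_vmv (s • Pi.single o 1 : Fin n → F) (Pi.single l 1)
    (by simp [hol, hol.symm])
  refine ⟨g, ?_, hg⟩
  have h1 := W0 (-s)
  rw [hW] at h1
  obtain ⟨c, hc⟩ := h1
  refine ⟨_, hc, fun a => ?_⟩
  rw [Qel_mulVec z _ (hzp _ _), hg, one_add_vmv_mulVec]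
  simp only [pv, hzdef, sympForm_add_right, sympForm_smul_right, form_ee, form_ef, eV_add,
    eV_smul]
  simp only [single_one_dotProduct, dotProduct_single_one]
  module

end Cfsg.Agent.Lib.Helper46.SpGen
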