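import Cfsg.Agent.S0765
import Cfsg.Agent.Lib.Helper46.SpGen.GenE
import Cfsg.Agent.Lib.Helper46.SpGen.GenAll
import Cfsg.Agent.Lib.Helper46.SpGen.Extract
import Cfsg.Agent.Lib.Helper46.SpGen.Chain
import Cfsg.Agent.Lib.Helper46.SpGen.Warg
import Cfsg.Agent.Lib.Helper46.SpGen.IndTop
import Cfsg.Agent.Lib.Helper46.SpGen.Reg
import Cfsg.Agent.Lib.Helper46.SpGen.ConjBase
import Cfsg.Agent.Lib.Helper46.SpGen.ConjX3
import Cfsg.Agent.Lib.Helper46.SpGen.ConjX2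
import Cfsg.Agent.Lib.Helper46.SpGen.Char2

set_option autoImplicit false
set_option linter.unusedSimpArgs false

namespace Cfsg.Agent.Lib.Helper46.SpGen
open Matrix Cfsg
open Cfsg.Agent.Lib.Helper17 Cfsg.Agent.Lib.Helper17.SympRoot
open Cfsg.Agent.Lib.Helper46

variable {n : ℕ} {F : Type*} [Field F]

theorem top_of_all (H : Subgroup (Sp n F)) (h : ∀ (v : Fin n ⊕ Fin n → F) (c : F), tv v c ∈ H) :
    H = ⊤ := by
  rw [eq_top_iff, ← Cfsg.Agent.S0765.result n, Subgroup.closure_le]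
  rintro A ⟨w, c, hA⟩
  have : A = tv w c := Subtype.ext hA
  rw [this]
  exact h w c

theorem gen_top [Fintype F] (hn : 2 ≤ n) (H : Subgroup (Sp n F)) (hE : indE H = ⊤)
    (e : Fin n → F) (he : e ≠ 0) (γ : F) (hγ : γ ≠ 0) (h1 : tv (eV e) γ ∈ H)
    (x : Fin n ⊕ Fin n → F) (hx : ∃ i, x (Sum.inr i) ≠ 0) (γ' : F) (hγ' : γ' ≠ 0)
    (h2 : tv x γ' ∈ H) : H = ⊤ :=
  top_of_all H (gen_all hn H hE (gen_E hn H hE e he γ hγ h1) x hx γ' hγ' h2)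

theorem indE_top [Fintype F] (hn : 2 ≤ n) (H : Subgroup (Sp n F)) (o l : Fin n)
    (ho : (o : ℕ) + 2 = n) (hl : (l : ℕ) + 1 = n) (κ : F) (hκ0 : κ ≠ 0)
    (hgen : ∀ t : F, t ≠ 0 → ∃ k : ℕ, t = κ ^ k)
    (hR : tv (fV (Pi.single l 1)) κ * tv (eV (Pi.single l 1)) 1 ∈ H)
    (hσ : tv (eV (Pi.single l 1)) 1 * tv (eV (Pi.single l 1 - Pi.single o 1)) (-1) ∈ H)
    (hu1 : yEl n F * tv (eV (Pi.single l 1)) 1 ∈ H)
    (k2 : Sp n F) (hk2 : k2 ∈ H)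
    (hk2E : ∀ a : Fin n → F, (k2 : Matrix (Fin n ⊕ Fin n) (Fin n ⊕ Fin n) F) *ᵥ eV a =
      eV ((1 - Nlow n F) *ᵥ a)) : indE H = ⊤ := by
  have hol : o ≠ l := by
    intro h
    have := congrArg Fin.val h
    omega
  obtain ⟨u, hu⟩ : ∃ u : Matrix.SpecialLinearGroup (Fin n) F,
      (u : Matrix (Fin n) (Fin n) F) = 1 - Nup n F := ⟨⟨_, det_one_sub_Nup⟩, rfl⟩
  obtain ⟨v, hv⟩ : ∃ v : Matrix.SpecialLinearGroup (Fin n) F,
      (v : Matrix (Fin n) (Fin n) F) = 1 - Nlow n F := ⟨⟨_, det_one_sub_Nlow⟩, rfl⟩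
  refine sl_top_of hn (indE H) u v ?_ ?_ hu hv o l ho hl (warg H o l hol κ hκ0 hgen hR hσ)
  · refine ⟨_, hu1, fun a => ?_⟩
    rw [sp_coe_mul_mulVec, tv_mulVec, form_ee, mul_zero, zero_smul, add_zero, yEl_eV, hu]
  · exact ⟨k2, hk2, fun a => by rw [hk2E, hv]⟩

theorem prod_aux (z l : Fin n) (hzl : z ≠ l) (κ β : F) :
    tv (fV (Pi.single l 1)) κ * tv (fV (Pi.single z 1)) β * (yEl n F)⁻¹ *
      (yEl n F * tv (eV (Pi.single l 1)) 1) =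
    tv (fV (Pi.single l 1)) κ * tv (eV (Pi.single l 1)) 1 * tv (fV (Pi.single z 1)) β := by
  have h0 : Cfsg.sympForm n F (fV (Pi.single z 1)) (eV (Pi.single l 1)) = 0 := by
    rw [form_fe]; simp [hzl, hzl.symm]
  rw [mul_assoc (tv (fV (Pi.single l 1)) κ) (tv (eV (Pi.single l 1)) 1), ← tv_comm h0]
  group

theorem U_mulVec_single (o l : Fin n) (ho : (o : ℕ) + 1 = l) :
    (1 - Nup n F) *ᵥ Pi.single l 1 = Pi.single l 1 - Pi.single o 1 := by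
  rw [Matrix.sub_mulVec, Matrix.one_mulVec]
  congr 1
  ext i
  rw [Matrix.mulVec_single_one, Matrix.col_apply]
  simp only [Nup, Matrix.of_apply, Pi.single_apply]
  by_cases h : i = o
  · simp [h, ho]
  · have : ¬ ((l : ℕ) = i + 1) := by
      intro h'
      apply h
      apply Fin.ext
      omega
    simp [h, this]

theorem main_A [Fintype F] (hn : 2 ≤ n) (z o l : Fin n) (hz : (z : ℕ) = 0)
    (ho : (o : ℕ) + 2 = n) (hl : (l : ℕ) + 1 = n) (κ : F) (hκ0 : κ ≠ 0) (hκ4 : κ ≠ 4)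
    (hgen : ∀ t : F, t ≠ 0 → ∃ k : ℕ, t = κ ^ k) (H : Subgroup (Sp n F))
    (hu1 : yEl n F * tv (eV (Pi.single l 1)) 1 ∈ H)
    (k2 : Sp n F) (hk2 : k2 ∈ H)
    (hk2E : ∀ a : Fin n → F, (k2 : Matrix (Fin n ⊕ Fin n) (Fin n ⊕ Fin n) F) *ᵥ eV a =
      eV ((1 - Nlow n F) *ᵥ a))
    (hu3 : tv (fV (Pi.single l 1)) κ * tv (fV (Pi.single z 1)) 1 * (yEl n F)⁻¹ ∈ H) :
    H = ⊤ := by
  have hzl : z ≠ l := by
    intro h
    have := congrArg Fin.val h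
    omega
  have hprod := H.mul_mem hu3 hu1
  rw [prod_aux z l hzl] at hprod
  obtain ⟨hR, ht⟩ := extract H z l hzl κ 1 hκ0 hκ4 hprod
  have hv0 : tv (fV (Pi.single l 1)) κ * (yEl n F)⁻¹ ∈ H := by
    have h1 := H.mul_mem (H.inv_mem ht) hu3
    rw [tv_comm (form_ff _ _) κ 1] at h1
    have e : (tv (fV (Pi.single z 1)) (1 : F))⁻¹ *
        (tv (fV (Pi.single z 1)) 1 * tv (fV (Pi.single l 1)) κ * (yEl n F)⁻¹) =
        tv (fV (Pi.single l 1)) κ * (yEl n F)⁻¹ := by group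
    rwa [e] at h1
  have ha := chain hn H z l hz hl κ hu1 hv0 ht
  have hy : yEl n F ∈ H := by
    have := H.mul_mem hu1 (H.inv_mem ha)
    rwa [mul_inv_cancel_right] at this
  have hσ : tv (eV (Pi.single l 1)) 1 * tv (eV (Pi.single l 1 - Pi.single o 1)) (-1) ∈ H := by
    have h1 : yEl n F * tv (eV (Pi.single l 1)) (-1) * (yEl n F)⁻¹ ∈ H := by
      refine H.mul_mem (H.mul_mem hy ?_) (H.inv_mem hy)
      rw [← tv_inv]
      exact H.inv_mem ha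
    rw [conj_tv, yEl_eV, U_mulVec_single o l (by omega)] at h1
    exact H.mul_mem ha h1
  have hE := indE_top hn H o l ho hl κ hκ0 hgen hR hσ hu1 k2 hk2 hk2E
  refine gen_top hn H hE (Pi.single l 1) ?_ 1 one_ne_zero ha (fV (Pi.single z 1)) ⟨z, by simp⟩ 1
    one_ne_zero ht
  intro h
  have := congrFun h l
  simp at this

theorem main_B [Fintype F] (h2 : (2 : F) = 0) (κ β : F) (hκ0 : κ ≠ 0) (hκ4 : κ ≠ 4)
    (hgen : ∀ t : F, t ≠ 0 → ∃ k : ℕ, t = κ ^ k) (hκ1 : κ ≠ 1) (hβ : β ≠ 0)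
    (H : Subgroup (Sp 2 F))
    (hu1 : yEl 2 F * tv (eV (Pi.single 1 1)) 1 ∈ H)
    (k2 : Sp 2 F) (hk2 : k2 ∈ H)
    (hk2E : ∀ a : Fin 2 → F, (k2 : Matrix (Fin 2 ⊕ Fin 2) (Fin 2 ⊕ Fin 2) F) *ᵥ eV a =
      eV ((1 - Nlow 2 F) *ᵥ a))
    (hu3 : tv (fV (Pi.single 1 1)) κ * tv (fV (Pi.single 0 1)) β * (yEl 2 F)⁻¹ ∈ H) :
    H = ⊤ := by
  have hprod := H.mul_mem hu3 hu1
  rw [prod_aux 0 1 (by decide)] at hprod
  obtain ⟨hR, ht⟩ := extract H 0 1 (by decide) κ β hκ0 hκ4 hprod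
  have hσ : tv (eV (Pi.single 1 1)) 1 * tv (eV (Pi.single 1 1 - Pi.single 0 1)) (-1) ∈ H := by
    rw [← sq_u1 h2]
    exact H.pow_mem hu1 2
  have hE := indE_top le_rfl H 0 1 rfl rfl κ hκ0 hgen hR hσ hu1 k2 hk2 hk2E
  have ha := etv_of_pair h2 H hE κ hκ0 hκ1 hσ
  refine gen_top le_rfl H hE (Pi.single 1 1) ?_ (1 + κ ^ 2) ?_ ha (fV (Pi.single 0 1))
    ⟨0, by simp⟩ β hβ ht
  · intro h
    have := congrFun h 1
    simp at this
  · intro h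
    have h3 : (1 - κ) ^ 2 = 0 := by linear_combination h - κ * h2
    have h4 : 1 - κ = 0 := by simpa using h3
    exact hκ1 (sub_eq_zero.mp h4).symm

theorem sp_three_conj [Fintype F] (n : ℕ) (hn : 2 ≤ n)
    (h22 : ¬ (n = 2 ∧ Fintype.card F = 2)) :
    ∃ u g h : Matrix.symplecticGroup (Fin n) F,
      IsNilpotent ((u : Matrix (Fin n ⊕ Fin n) (Fin n ⊕ Fin n) F) - 1) ∧
      ((u : Matrix (Fin n ⊕ Fin n) (Fin n ⊕ Fin n) F) - 1) ^ (2 * n - 1) ≠ 0 ∧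
      Subgroup.closure ({u, g * u * g⁻¹, h * u * h⁻¹} :
        Set (Matrix.symplecticGroup (Fin n) F)) = ⊤ := by
  classical
  obtain ⟨z, hz⟩ : ∃ z : Fin n, (z : ℕ) = 0 := ⟨⟨0, by omega⟩, rfl⟩
  obtain ⟨o, ho⟩ : ∃ o : Fin n, (o : ℕ) + 2 = n := ⟨⟨n - 2, by omega⟩, by simp; omega⟩
  obtain ⟨l, hl⟩ : ∃ l : Fin n, (l : ℕ) + 1 = n := ⟨⟨n - 1, by omega⟩, by simp; omega⟩
  obtain ⟨κ, hκ0, hκ4, hgen⟩ := exists_primitive_ne_four (F := F)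
  obtain ⟨g, hg⟩ := conj_rev (F := F) l hl
  obtain ⟨hreg1, hreg2⟩ := reg_u1 (F := F) l hl
  -- it suffices to find a conjugator for the third generator
  suffices hmain : ∃ h : Sp n F, ∀ H : Subgroup (Sp n F),
      yEl n F * tv (eV (Pi.single l 1)) 1 ∈ H →
      g * (yEl n F * tv (eV (Pi.single l 1)) 1) * g⁻¹ ∈ H →
      h * (yEl n F * tv (eV (Pi.single l 1)) 1) * h⁻¹ ∈ H → H = ⊤ by
    obtain ⟨h, hh⟩ := hmain
    refine ⟨yEl n F * tv (eV (Pi.single l 1)) 1, g, h, hreg1, hreg2, ?_⟩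
    apply hh
    · exact Subgroup.subset_closure (by simp)
    · exact Subgroup.subset_closure (by simp)
    · exact Subgroup.subset_closure (by simp)
  by_cases hcase : n = 2 ∧ (2 : F) = 0
  · obtain ⟨rfl, h2⟩ := hcase
    obtain rfl : z = 0 := Fin.ext hz
    obtain rfl : l = 1 := Fin.ext (by simpa using hl)
    have hκ1 : κ ≠ 1 := by
      intro h1
      apply h22
      refine ⟨rfl, ?_⟩
      rw [← Nat.card_eq_fintype_card, Nat.card_eq_two_iff]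
      refine ⟨0, 1, zero_ne_one, ?_⟩
      ext t
      simp only [Set.mem_insert_iff, Set.mem_singleton_iff, Set.mem_univ, iff_true]
      by_cases ht : t = 0
      · exact Or.inl ht
      · obtain ⟨k, hk⟩ := hgen t ht
        right
        rw [hk, h1, one_pow]
    have hκ1' : 1 - κ ≠ 0 := fun h => hκ1 (sub_eq_zero.mp h).symm
    obtain ⟨h₀, hh₀⟩ := conj_base (F := F) (0 : Fin 2) 1 rfl rfl (1 - κ)⁻¹ (inv_ne_zero hκ1')
    obtain ⟨x, hx⟩ := conj_x2 (F := F) (((1 - κ)⁻¹)⁻¹ ^ 2) (1 - κ)⁻¹ 0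
    have hpar : ((1 - κ)⁻¹)⁻¹ ^ 2 * (((1 - κ)⁻¹) ^ 2 - (1 - κ)⁻¹) - 2 * 0 = κ := by
      field_simp
      ring
    rw [hpar] at hx
    refine ⟨x * h₀, fun H hu1 hu2 hu3 => ?_⟩
    have e : x * h₀ * (yEl 2 F * tv (eV (Pi.single 1 1)) 1) * (x * h₀)⁻¹ =
        x * (h₀ * (yEl 2 F * tv (eV (Pi.single 1 1)) 1) * h₀⁻¹) * x⁻¹ := by group
    rw [e, hh₀, hx] at hu3
    exact main_B h2 κ _ hκ0 hκ4 hgen hκ1 (pow_ne_zero 2 (inv_ne_zero (inv_ne_zero hκ1'))) H hu1 _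
      hu2 hg hu3
  · obtain ⟨h₀, hh₀⟩ := conj_base (F := F) z l hz hl 1 one_ne_zero
    rw [inv_one, one_pow] at hh₀
    obtain ⟨x, hx⟩ : ∃ x : Sp n F, x * (tv (fV (Pi.single z 1)) 1 * (yEl n F)⁻¹) * x⁻¹ =
        tv (fV (Pi.single l 1)) κ * tv (fV (Pi.single z 1)) 1 * (yEl n F)⁻¹ := by
      by_cases hn3 : 3 ≤ n
      · exact conj_x3 hn3 z l hz hl κ 1
      · obtain rfl : n = 2 := by omega
        obtain rfl : z = 0 := Fin.ext hz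
        obtain rfl : l = 1 := Fin.ext (by simpa using hl)
        have h2 : (2 : F) ≠ 0 := fun h => hcase ⟨rfl, h⟩
        obtain ⟨x, hx⟩ := conj_x2 (F := F) 1 0 (-κ / 2)
        have hpar : (1 : F) * (0 ^ 2 - 0) - 2 * (-κ / 2) = κ := by
          field_simp
          ring
        rw [hpar] at hx
        exact ⟨x, hx⟩
    refine ⟨x * h₀, fun H hu1 hu2 hu3 => ?_⟩
    have e : x * h₀ * (yEl n F * tv (eV (Pi.single l 1)) 1) * (x * h₀)⁻¹ =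
        x * (h₀ * (yEl n F * tv (eV (Pi.single l 1)) 1) * h₀⁻¹) * x⁻¹ := by group
    rw [e, hh₀, hx] at hu3
    exact main_A hn z o l hz ho hl κ hκ0 hκ4 hgen H hu1 _ hu2 hg hu3

end Cfsg.Agent.Lib.Helper46.SpGen
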