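import Cfsg.Agent.Lib.Helper46.SpGen.Defs

set_option autoImplicit false
set_option linter.unusedSimpArgs false

namespace Cfsg.Agent.Lib.Helper46.SpGen
open Matrix Cfsg
open Cfsg.Agent.Lib.Helper17 Cfsg.Agent.Lib.Helper17.SympRoot
open Cfsg.Agent.Lib.Helper46

variable {n : ℕ} {F : Type*} [Field F]

private theorem sl_move (v w φ : Fin n → F) (hv : φ ⬝ᵥ v = 1) (hw : φ ⬝ᵥ w = 1) :
    ∃ g : Matrix.SpecialLinearGroup (Fin n) F, (g : Matrix (Fin n) (Fin n) F) *ᵥ v = w := by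
  obtain ⟨g, hg⟩ := exists_sl_vmv (w - v) φ (by rw [dotProduct_sub, hv, hw, sub_self])
  refine ⟨g, ?_⟩
  rw [hg, Matrix.add_mulVec, Matrix.one_mulVec, Matrix.vecMulVec_mulVec, hv]
  simp

private theorem sl_to_single (v : Fin n → F) (i k : Fin n) (hi : v i ≠ 0) (hik : k ≠ i) :
    ∃ g : Matrix.SpecialLinearGroup (Fin n) F,
      (g : Matrix (Fin n) (Fin n) F) *ᵥ v = Pi.single k 1 := by
  apply sl_move v (Pi.single k 1) (Pi.single i ((1 - v k) / v i) + Pi.single k 1)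
  · rw [add_dotProduct, single_dotProduct, single_dotProduct]
    field_simp
    ring
  · rw [add_dotProduct, single_dotProduct, single_dotProduct]
    simp [Pi.single_apply, hik.symm, hik]

private theorem sl_to_zero (hn : 2 ≤ n) (v : Fin n → F) (hv : v ≠ 0) :
    ∃ g : Matrix.SpecialLinearGroup (Fin n) F,
      (g : Matrix (Fin n) (Fin n) F) *ᵥ v = Pi.single ⟨0, by omega⟩ 1 := by
  obtain ⟨i, hi⟩ : ∃ i, v i ≠ 0 := by
    by_contra hcon
    push Not at hcon
    exact hv (funext hcon)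
  by_cases h0 : (⟨0, by omega⟩ : Fin n) = i
  · have h10 : (⟨1, by omega⟩ : Fin n) ≠ i := by
      rw [← h0]
      intro h
      simpa using congrArg Fin.val h
    obtain ⟨g1, hg1⟩ := sl_to_single v i ⟨1, by omega⟩ hi h10
    obtain ⟨g2, hg2⟩ := sl_to_single (Pi.single (⟨1, by omega⟩ : Fin n) (1 : F)) ⟨1, by omega⟩
      ⟨0, by omega⟩ (by simp) (by intro h; simpa using congrArg Fin.val h)
    refine ⟨g2 * g1, ?_⟩
    rw [Matrix.SpecialLinearGroup.coe_mul, ← Matrix.mulVec_mulVec, hg1, hg2]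
  · exact sl_to_single v i _ hi h0

theorem sl_trans (hn : 2 ≤ n) (v w : Fin n → F) (hv : v ≠ 0) (hw : w ≠ 0) :
    ∃ g : Matrix.SpecialLinearGroup (Fin n) F, (g : Matrix (Fin n) (Fin n) F) *ᵥ v = w := by
  obtain ⟨g1, hg1⟩ := sl_to_zero hn v hv
  obtain ⟨g2, hg2⟩ := sl_to_zero hn w hw
  refine ⟨g2⁻¹ * g1, ?_⟩
  rw [Matrix.SpecialLinearGroup.coe_mul, ← Matrix.mulVec_mulVec, hg1, ← hg2, Matrix.mulVec_mulVec,
    ← Matrix.SpecialLinearGroup.coe_mul, inv_mul_cancel]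
  simp

theorem sl_trans_T (hn : 2 ≤ n) (v w : Fin n → F) (hv : v ≠ 0) (hw : w ≠ 0) :
    ∃ g : Matrix.SpecialLinearGroup (Fin n) F, (g : Matrix (Fin n) (Fin n) F)ᵀ *ᵥ v = w := by
  obtain ⟨g, hg⟩ := sl_trans hn v w hv hw
  refine ⟨g.transpose, ?_⟩
  rw [Matrix.SpecialLinearGroup.coe_transpose, Matrix.transpose_transpose]
  exact hg

theorem sum_two_sq [Fintype F] (c : F) : ∃ a b : F, c = a ^ 2 + b ^ 2 := by
  classical
  by_cases h2 : ringChar F = 2
  · obtain ⟨a, ha⟩ := FiniteField.isSquare_of_char_two h2 c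
    exact ⟨a, 0, by rw [ha]; ring⟩
  · have hodd : Fintype.card F % 2 = 1 := FiniteField.odd_card_of_char_ne_two h2
    obtain ⟨a, b, hab⟩ := FiniteField.exists_root_sum_quadratic (R := F)
      (f := Polynomial.X ^ 2) (g := Polynomial.X ^ 2 - Polynomial.C c)
      (Polynomial.degree_X_pow 2) (Polynomial.degree_X_pow_sub_C (by norm_num) c) hodd
    refine ⟨a, b, ?_⟩
    simp only [Polynomial.eval_pow, Polynomial.eval_X, Polynomial.eval_sub, Polynomial.eval_C] at hab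
    linear_combination -hab

end Cfsg.Agent.Lib.Helper46.SpGen
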